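import Mathlib
import Cfsg.Agent.H942.CB.Chk

/-!
# S5921, P3: the certificate for the centraliser of `y`
-/

set_option autoImplicit false
set_option maxRecDepth 100000

namespace Cfsg.Agent.H948.P3

open Cfsg.Agent.H942.CB

/-- the alcove vector -/
def V3 : List ℕ := [5, 0, 0, 1, 0, 2, 0, 1]

/-- the twist -/
def w3 : List ℕ := [3, 2, 1, 3, 4, 5, 6, 7, 3, 2, 1, 3, 4, 5, 6, 0, 2, 3, 4, 5, 1, 3, 4, 2, 3, 0, 2, 1, 3, 4,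
  5, 6, 7, 0, 2, 3, 4, 5, 1, 3, 4, 2, 3, 0, 2, 1, 3, 4, 5, 6, 5, 4, 3, 2, 1, 3, 4, 5, 0, 2, 3, 4, 1, 3, 2, 0]

/-- certificate, `N = 40`, type 4A1 -/
def C3 : Cert := ⟨w3, [1, 1, 1, 1, 1, 1, 80, 80], [[1, 0, 0, 0, 0, 0, 0, 0], [0, 1, 0, 0, 0, 0, 0, 0], [-1, 0,
  1, 0, 0, 0, 0, 0], [-1, 0, 0, 1, 0, 0, 0, 0], [-4, 3, 9, -5, 1, 0, 0, 0], [22, 0, 0, -19, 0, 1, 0, 0], [-31,
  9, 27, 1, 3, -1, 1, 0], [45, 0, 0, -39, 0, 2, 0, 1]], [[1, 0, 1, 1, 0, -3, 0, 0], [0, 1, 0, 0, -3, 0, 0, 0],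
  [0, 0, 1, 0, -9, 0, 0, 0], [0, 0, 0, 1, 5, 19, 3, 1], [0, 0, 0, 0, 1, 0, -3, 0], [0, 0, 0, 0, 0, 1, 1, -2],
  [0, 0, 0, 0, 0, 0, 1, 0], [0, 0, 0, 0, 0, 0, 0, 1]], [[], [1, 2, 4, 6]]⟩

theorem chkC3 : chk 40 V3 C3 = true := by decide +kernel

theorem bndC3 : bnd 40 V3 C3 = 42508800 := by decide +kernel

end Cfsg.Agent.H948.P3
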