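import Mathlib
import Cfsg.Agent.H948.P3.Cert
import Cfsg.Agent.H948.P3.Comp
import Cfsg.Agent.H540.E8C.Centre

/-!
# S5921, P3: the centraliser of `t`, and the Frobenius twist
-/

set_option autoImplicit false
set_option linter.unusedSectionVars false
set_option maxRecDepth 100000

namespace Cfsg.Agent.H948.P3

open CoxeterSystem Cfsg Cfsg.Lie Cfsg.Lie.ChevalleyDatum
open Cfsg.Agent.ChevalleyStructure Cfsg.Agent.ChevalleyStructure.Elts Cfsg.Agent.ChevalleyStructure.CoxeterGeom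
  Cfsg.Agent.ChevalleyStructure.CoxeterGeomTypes Cfsg.Agent.ChevalleyStructure.NPerm
  Cfsg.Agent.ChevalleyStructure.RootVec Cfsg.Agent.ChevalleyStructure.RootVecTab
open Cfsg.Agent.Tits.Roots Cfsg.Agent.Tits.Core Cfsg.Agent.Nodes Cfsg.Agent.Nodes.Reps Cfsg.Agent.Nodes.BNOf
  Cfsg.Agent.Nodes.RGDChev Cfsg.Agent.Nodes.Bruhat Cfsg.Agent.Nodes.SubComb Cfsg.Agent.Nodes.Coroot
  Cfsg.Agent.Nodes.NormalForm
open Cfsg.Agent.KFacts.RgdField Cfsg.Agent.KFacts.RgdChevCoord Cfsg.Agent.BpExc.TorCent Cfsg.Agent.BpExc.TorChev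
open Cfsg.Agent.GpExc.Field Cfsg.Agent.BpExc.Tow Cfsg.Agent.BpExc.TowChev Cfsg.Agent.BpExc.Fr
  Cfsg.Agent.BpExc.LangFr Cfsg.Agent.LangThm Cfsg.Agent.BpExc Cfsg.Agent.H129.TorusChar Cfsg.Agent.H129.TorusMain
open Cfsg.Agent.H720.TorusReal Cfsg.Agent.Nodes.Unique Cfsg.Agent.H897.T5Cent
open Cfsg.Agent.BpExc.FamUntw Cfsg.Agent.BpExc.FamInst Cfsg.Agent.BpExc.FamField
open Cfsg.Agent.H942.E8Tab Cfsg.Agent.H942.E8Alc Cfsg.Agent.H942.CB
open Cfsg.Agent.H944.Tab Cfsg.Agent.H944.Kac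
open Cfsg.Agent.H540.E8C (KK cX_of_vals)
open Matrix

instance kkch : CharP KK 3 := charP_of_injective_algebraMap (algebraMap (ZMod 3) KK).injective 3

theorem kk3 : (3 : KK) = 0 := by
  have := CharP.cast_eq_zero KK 3
  exact_mod_cast this

theorem lf : LocFin KK := locFin_of_isAlgebraic 3 KK

/-- the system -/
theorem hNs : NSys CoxeterMatrix.E₈ (TT chevE8 KK) (nc e8T KK) := nsysT e8T lf 3

/-- the matrix of an element -/
abbrev mt (g : ↥(chevE8.group KK)) : Matrix chevE8.Idx chevE8.Idx KK := ((g : GL chevE8.Idx KK) : Matrix chevE8.Idx chevE8.Idx KK)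

theorem mt_mul (a b : ↥(chevE8.group KK)) : mt (a * b) = mt a * mt b := by
  show (((a * b : ↥(chevE8.group KK)) : GL chevE8.Idx KK) : Matrix chevE8.Idx chevE8.Idx KK) = _
  rw [Subgroup.coe_mul, Units.val_mul]

theorem mt_one : mt (1 : ↥(chevE8.group KK)) = 1 := rfl

/-! ### tables -/

theorem tab_zero : ∀ s : Fin chevE8.nroots, (40 : ℤ) ∣ fz (YZ V3) (vec chevE8 8 s.val) →
    ∃ j : Fin 4, s.val = pI j ∨ s.val = nI j := by decide +kernel

theorem tab_p : ∀ j : Fin 4, (40 : ℤ) ∣ fz (YZ V3) (vec chevE8 8 (pI j)) := by decide +kernel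

theorem tab_n : ∀ j : Fin 4, (40 : ℤ) ∣ fz (YZ V3) (vec chevE8 8 (nI j)) := by decide +kernel

/-- the cycle -/
def cy : Fin 4 → Fin 4 := ![1, 3, 0, 2]

theorem cy4 : ∀ j, cy (cy (cy (cy j))) = j := by decide

/-- the coordinate functionals -/
def el (i : ℕ) : List ℤ := (List.range 8).map fun m => if m = i then 1 else 0

theorem fz_el : ∀ (i : Fin 8) (x : Fin 8 → ℤ), fz (el i) x = x i := by
  intro i x
  unfold fz
  have h : ∀ i j : Fin 8, (el i).getD j 0 = if j = i then 1 else 0 := by decide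
  simp only [h]
  rw [Finset.sum_eq_single i]
  · simp
  · intro b _ hb
    rw [if_neg hb, zero_mul]
  · intro hi; exact absurd (Finset.mem_univ i) hi

theorem w3_lt : ∀ i ∈ w3, i < 8 := by decide +kernel

theorem rep_w3 (x : Fin 8 → ℤ) (i : Fin 8) : rep cs8 e8T.isCartan (word w3) x i = fz (actW w3 (el i)) x := by
  rw [fz_actW w3 w3_lt (by simp [el]), fz_el]

theorem tab_wp : ∀ (j : Fin 4) (i : Fin 8), fz (actW w3 (el i)) (vec chevE8 8 (pI j)) = vec chevE8 8 (pI (cy j)) i := by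
  decide +kernel

theorem tab_wn : ∀ (j : Fin 4) (i : Fin 8), fz (actW w3 (el i)) (vec chevE8 8 (nI j)) = vec chevE8 8 (nI (cy j)) i := by
  decide +kernel

theorem rep_p (j : Fin 4) : rep cs8 e8T.isCartan (word w3) (vec chevE8 8 (pI j)) = vec chevE8 8 (pI (cy j)) := by
  funext i
  rw [rep_w3, tab_wp]

theorem rep_n (j : Fin 4) : rep cs8 e8T.isCartan (word w3) (vec chevE8 8 (nI j)) = vec chevE8 8 (nI (cy j)) := by
  funext i
  rw [rep_w3, tab_wn]

/-! ### the centraliser of `t` -/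

section Cent

variable {ζ : KK} (hζ : IsPrimitiveRoot ζ 40) {t : ↥(chevE8.group KK)} (htT : t ∈ TT chevE8 KK)
  (hX : ∀ a, cX e8T t a = ζ ^ fz (YZ V3) a)

include hζ hX

theorem cX_one_iff (a : Fin 8 → ℤ) : cX e8T t a = 1 ↔ (40 : ℤ) ∣ fz (YZ V3) a := by
  rw [hX, hζ.zpow_eq_one_iff_dvd]
  rfl

include htT

theorem su_iff (u : chevE8.Idx → KK) : mt t *ᵥ u = u ↔ Su u := by
  rw [mt, TT_diag' e8T htT]
  constructor
  · intro h s hs
    have h1 := congrFun h (Sum.inr s)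
    rw [Matrix.mulVec_diagonal, Sum.elim_inr] at h1
    have h2 : cX e8T t (vec chevE8 8 s) = 1 := by
      have h3 : cX e8T t (vec chevE8 8 s) * u (Sum.inr s) = 1 * u (Sum.inr s) := by rw [one_mul]; exact h1
      exact mul_right_cancel₀ hs h3
    exact tab_zero s ((cX_one_iff hζ hX _).1 h2)
  · intro h
    funext i
    rw [Matrix.mulVec_diagonal]
    rcases i with i | s
    · rw [Sum.elim_inl, one_mul]
    · rw [Sum.elim_inr]
      by_cases h0 : u (Sum.inr s) = 0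
      · rw [h0, mul_zero]
      · obtain ⟨j, hj | hj⟩ := h s h0
        · rw [hj, (cX_one_iff hζ hX _).2 (tab_p j), one_mul]
        · rw [hj, (cX_one_iff hζ hX _).2 (tab_n j), one_mul]

end Cent

/-- the good elements -/
def GoodSub : Subgroup ↥(chevE8.group KK) where
  carrier := {g | Good (mt g) ∧ Good (mt g⁻¹)}
  one_mem' := ⟨by rw [mt_one]; exact Good.one, by rw [inv_one, mt_one]; exact Good.one⟩
  mul_mem' := fun {a b} ha hb => ⟨by rw [mt_mul]; exact ha.1.mul hb.1, by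
    rw [_root_.mul_inv_rev, mt_mul]; exact hb.2.mul ha.2⟩
  inv_mem' := fun {a} ha => ⟨ha.2, by rw [inv_inv]; exact ha.1⟩

theorem mt_xc {s : ℕ} (hs : s < chevE8.nroots) (a : KK) : mt (xc e8T (vec chevE8 8 s) a) = chevE8.x KK s a := by
  rw [mt, coe_xc e8T hs, coe_xG]

/-- the elements of the root groups -/
theorem mem_XX {s : ℕ} (hs : s < chevE8.nroots) {g : ↥(chevE8.group KK)} :
    g ∈ XX chevE8 8 KK (vec chevE8 8 s) ↔ ∃ a, xc e8T (vec chevE8 8 s) a = g :=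
  ((coordsL (k := KK) e8T cs8 lf 3).coord _ ((isRoot_iff e8T cs8 _).2 ⟨s, hs, rfl⟩)).mem g

theorem XX_le_good {s : ℕ} (h : ∃ j : Fin 4, s = pI j ∨ s = nI j) : XX chevE8 8 KK (vec chevE8 8 s) ≤ GoodSub := by
  have hs : s < chevE8.nroots := by
    obtain ⟨j, rfl | rfl⟩ := h
    · exact pI_lt j
    · exact nI_lt j
  have key : ∀ g ∈ XX chevE8 8 KK (vec chevE8 8 s), Good (mt g) := by
    intro g hg
    obtain ⟨a, rfl⟩ := (mem_XX hs).1 hg
    rw [mt_xc hs]
    obtain ⟨j, rfl | rfl⟩ := h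
    · exact good_p kk3 j a
    · exact good_n kk3 j a
  exact fun g hg => ⟨key g hg, key _ (inv_mem hg)⟩

theorem TT_le_good : TT chevE8 KK ≤ GoodSub := by
  have key : ∀ g ∈ TT chevE8 KK, Good (mt g) := by
    intro g hg
    rw [mt, TT_diag' e8T hg]
    refine good_diag fun j => ?_
    show cX e8T g (vec chevE8 8 (pI j)) * cX e8T g (vec chevE8 8 (nI j)) = 1
    have h1 : ∀ j : Fin 4, vec chevE8 8 (pI j) + vec chevE8 8 (nI j) = 0 := by decide +kernel
    rw [← (isMC_cX e8T hg).add, h1, (isMC_cX e8T hg).zero]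
  exact fun g hg => ⟨key g hg, key _ (inv_mem hg)⟩

theorem con40 : Con e8T cs8 lf 3 40 :=
  con_of_frm' (p := 3) e8T cs8 lf frm8 invC_E8 (N := 40) (Nat.coprime_one_left 40) (by norm_num) (by norm_num)

/-- **the centraliser of `t` is good** -/
theorem good_of_comm {ζ : KK} (hζ : IsPrimitiveRoot ζ 40) {t : ↥(chevE8.group KK)} (htT : t ∈ TT chevE8 KK)
    (hX : ∀ a, cX e8T t a = ζ ^ fz (YZ V3) a) (ht : t ^ 40 = 1) {g : ↥(chevE8.group KK)} (hg : g * t = t * g) :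
    Good (mt g) := by
  obtain ⟨m, hm, s, hs, rfl⟩ := cent_form e8T cs8 lf 3 con40 htT ht hg
  have h1 : Cfsg.Agent.H795.SetCent.MMZ cs8 e8T.isCartan (XX chevE8 8 KK) (ch e8T) {t} ≤ GoodSub := by
    refine RGD.Sup_le fun a ha => ?_
    obtain ⟨s, hs, rfl⟩ := (isRoot_iff e8T cs8 a).1 ha.1
    refine XX_le_good ?_
    have h2 := ha.2 t rfl
    rw [← cX_vec e8T htT hs, cX_one_iff hζ hX] at h2
    exact tab_zero ⟨s, hs⟩ h2
  exact (mul_mem (h1 hm) (TT_le_good hs)).1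

/-! ### Frobenius -/

/-- Frobenius on vectors -/
noncomputable def Fv (u : chevE8.Idx → KK) : chevE8.Idx → KK := fun i => u i ^ 3

/-- Frobenius on the group -/
noncomputable abbrev sg : MulAut ↥(chevE8.group KK) := phi chevE8 KK 3 1

theorem frob_eq (a : KK) : frobenius KK 3 a = a ^ 3 := rfl

theorem Fv_mt (g : ↥(chevE8.group KK)) (u : chevE8.Idx → KK) : Fv (mt g *ᵥ u) = mt (sg g) *ᵥ Fv u := by
  have h1 : mt (sg g) = (mt g).map (frobenius KK 3) := by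
    show (((Agent.CpAut.RgdUntw.fld chevE8 (Cfsg.Agent.BpExc.FamField.frb KK 3 1) g : ↥(chevE8.group KK)) : GL chevE8.Idx KK) :
      Matrix chevE8.Idx chevE8.Idx KK) = _
    rw [Agent.CpAut.RgdUntw.fld_coe]
    ext i j
    rw [Matrix.map_apply, Matrix.map_apply, frob_eq]
    exact (Cfsg.Agent.BpExc.FamField.frb_apply KK 3 1 _).trans (by rw [pow_one])
  rw [h1]
  funext i
  exact RingHom.map_mulVec (frobenius KK 3) (mt g) u i

theorem Fv_add (u v : chevE8.Idx → KK) : Fv (u + v) = Fv u + Fv v := by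
  funext i
  exact map_add (frobenius KK 3) (u i) (v i)

theorem Fv_sub (u v : chevE8.Idx → KK) : Fv (u - v) = Fv u - Fv v := by
  funext i
  exact map_sub (frobenius KK 3) (u i) (v i)

theorem Fv_smul (c : KK) (u : chevE8.Idx → KK) : Fv (c • u) = c ^ 3 • Fv u := by
  funext i
  exact mul_pow c (u i) 3

theorem Fv_sum {ι : Type*} (s : Finset ι) (f : ι → chevE8.Idx → KK) : Fv (∑ i ∈ s, f i) = ∑ i ∈ s, Fv (f i) := by
  classical
  induction s using Finset.induction_on with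
  | empty =>
    rw [Finset.sum_empty, Finset.sum_empty]
    funext i
    exact zero_pow (by norm_num)
  | insert a s ha ih => rw [Finset.sum_insert ha, Finset.sum_insert ha, Fv_add, ih]

theorem su_Fv {u : chevE8.Idx → KK} (hu : Su u) : Su (Fv u) := by
  intro s hs
  exact hu s fun h0 => hs (by
    show u (Sum.inr s) ^ 3 = 0
    rw [h0]; exact zero_pow (by norm_num))

theorem al_Fv (j : Fin 4) (u : chevE8.Idx → KK) : al j (Fv u) = al j u ^ 3 := by
  rw [al_apply, al_apply, ← frob_eq, map_sum]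
  refine Finset.sum_congr rfl fun i _ => ?_
  rw [map_mul, map_intCast]
  rfl

theorem cp_Fv (j : Fin 4) (u : chevE8.Idx → KK) (k : Fin 3) : cp j (Fv u) k = cp j u k ^ 3 := by
  fin_cases k
  · rfl
  · rfl
  · exact al_Fv j u

/-! ### the twist -/

section Twist

variable {ζ : KK} (hζ : IsPrimitiveRoot ζ 40) {t : ↥(chevE8.group KK)} (htT : t ∈ TT chevE8 KK)
  (hX : ∀ a, cX e8T t a = ζ ^ fz (YZ V3) a) {n : ↥(chevE8.group KK)} (hn : Rp cs8 hNs (word w3) n)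
  (hnt : n * sg t * n⁻¹ = t)

include hζ htT hX hnt in
theorem tw_su {u : chevE8.Idx → KK} (hu : Su u) : Su (mt n *ᵥ Fv u) := by
  rw [← su_iff hζ htT hX] at hu ⊢
  have h1 : t * n = n * sg t := by
    have : n * sg t = (n * sg t * n⁻¹) * n := by group
    rw [this, hnt]
  rw [Matrix.mulVec_mulVec, ← mt_mul, h1, mt_mul, ← Matrix.mulVec_mulVec, ← Fv_mt, hu]

include hn in
theorem conj_p (j : Fin 4) : ∃ a, xc e8T (vec chevE8 8 (pI (cy j))) (1 : KK) * n = n * xc e8T (vec chevE8 8 (pI j)) a := by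
  have F := fr_conj e8T cs8 lf 3 hn
  have h1 : xc e8T (vec chevE8 8 (pI (cy j))) (1 : KK) ∈ XX chevE8 8 KK (vec chevE8 8 (pI (cy j))) :=
    (mem_XX (pI_lt _)).2 ⟨1, rfl⟩
  have h2 := F.map (vec chevE8 8 (pI j)) ((isRoot_iff e8T cs8 _).2 ⟨_, pI_lt j, rfl⟩)
    (n⁻¹ * xc e8T (vec chevE8 8 (pI (cy j))) (1 : KK) * n)
  rw [repAut_apply, rep_p] at h2
  have h3 : (MulAut.conj n) (n⁻¹ * xc e8T (vec chevE8 8 (pI (cy j))) (1 : KK) * n) =
      xc e8T (vec chevE8 8 (pI (cy j))) (1 : KK) := by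
    rw [MulAut.conj_apply]; group
  rw [h3] at h2
  obtain ⟨a, ha⟩ := (mem_XX (pI_lt j)).1 (h2.1 h1)
  exact ⟨a, by rw [ha]; group⟩

include hn in
theorem conj_n (j : Fin 4) : ∃ a, xc e8T (vec chevE8 8 (nI (cy j))) (1 : KK) * n = n * xc e8T (vec chevE8 8 (nI j)) a := by
  have F := fr_conj e8T cs8 lf 3 hn
  have h1 : xc e8T (vec chevE8 8 (nI (cy j))) (1 : KK) ∈ XX chevE8 8 KK (vec chevE8 8 (nI (cy j))) :=
    (mem_XX (nI_lt _)).2 ⟨1, rfl⟩
  have h2 := F.map (vec chevE8 8 (nI j)) ((isRoot_iff e8T cs8 _).2 ⟨_, nI_lt j, rfl⟩)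
    (n⁻¹ * xc e8T (vec chevE8 8 (nI (cy j))) (1 : KK) * n)
  rw [repAut_apply, rep_n] at h2
  have h3 : (MulAut.conj n) (n⁻¹ * xc e8T (vec chevE8 8 (nI (cy j))) (1 : KK) * n) =
      xc e8T (vec chevE8 8 (nI (cy j))) (1 : KK) := by
    rw [MulAut.conj_apply]; group
  rw [h3] at h2
  obtain ⟨a, ha⟩ := (mem_XX (nI_lt j)).1 (h2.1 h1)
  exact ⟨a, by rw [ha]; group⟩

include hζ htT hX hn hnt in
theorem tw_ker {u : chevE8.Idx → KK} (hu : Su u) {j : Fin 4} (hj : cp j u = 0) : cp (cy j) (mt n *ᵥ Fv u) = 0 := by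
  have hj' : cp j (Fv u) = 0 := by
    funext k
    rw [cp_Fv, hj]
    exact zero_pow (by norm_num)
  refine ker_of_fix (tw_su hζ htT hX hnt hu) ?_ ?_
  · obtain ⟨a, ha⟩ := conj_p hn j
    rw [← mt_xc (pI_lt _), Matrix.mulVec_mulVec, ← mt_mul, ha, mt_mul, ← Matrix.mulVec_mulVec, mt_xc (pI_lt j),
      fix_p (su_Fv hu) hj']
  · obtain ⟨a, ha⟩ := conj_n hn j
    rw [← mt_xc (nI_lt _), Matrix.mulVec_mulVec, ← mt_mul, ha, mt_mul, ← Matrix.mulVec_mulVec, mt_xc (nI_lt j),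
      fix_n (su_Fv hu) hj']

end Twist

end Cfsg.Agent.H948.P3
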