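import Mathlib
import Cfsg.Agent.H948.P3.Comp
import Cfsg.Agent.H971.RV.Lie

/-!
# S5921, P3: the bracket on the 16-dimensional space
-/

set_option autoImplicit false
set_option linter.unusedSectionVars false
set_option maxRecDepth 100000

namespace Cfsg.Agent.H948.P3

open Matrix Cfsg Cfsg.Lie Cfsg.Lie.ChevalleyDatum
open Cfsg.Agent.ChevalleyStructure Cfsg.Agent.ChevalleyStructure.XColumns
open Cfsg.Agent.ChevalleyStructure.LieAbs Cfsg.Agent.ChevalleyStructure.Ring Cfsg.Agent.ChevalleyStructure.JacMain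
  Cfsg.Agent.ChevalleyStructure.LieAut Cfsg.Agent.ChevalleyStructure.JacAll
open Cfsg.Agent.H971.RV (br)

universe u

theorem lac8 : Cfsg.Agent.H512.LinFour.IdealF.Lac chevE8 := ⟨by simp, by decide +kernel, by decide +kernel⟩

variable {K : Type u} [Field K]

/-- the Lie action of `e_r` from the action of `x_r(± 1)` -/
theorem adK_of {r : ℕ} (hr : r < chevE8.nroots) (h2 : (2 : K) ≠ 0) {v a b : chevE8.Idx → K}
    (h : ∀ t : K, chevE8.x K r t *ᵥ v = v + t • a + t ^ 2 • b) : adK chevE8 K r *ᵥ v = a := by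
  have h1 := h 1
  have h3 := h (-1)
  rw [Cfsg.Agent.H971.RV.x_eq_three lac8 hr] at h1 h3
  simp only [Matrix.add_mulVec, Matrix.one_mulVec, Matrix.smul_mulVec, one_smul, one_pow, neg_one_sq, neg_smul, Matrix.neg_mulVec] at h1 h3
  have h4 : (2 : K) • (adK chevE8 K r *ᵥ v) = (2 : K) • a := by
    have h5 := congrArg₂ (fun x y => x - y) h1 h3
    have e1 : ∀ x y z : chevE8.Idx → K, x + y + z - (x + -y + z) = (2 : K) • y := by
      intro x y z
      rw [two_smul]; abel
    rw [e1, e1] at h5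
    exact h5
  have h6 := congrArg (fun x => (2 : K)⁻¹ • x) h4
  simp only [smul_smul, inv_mul_cancel₀ h2, one_smul] at h6
  exact h6

theorem ad_p (h2 : (2 : K) ≠ 0) {v : chevE8.Idx → K} (hv : Su v) (j : Fin 4) :
    adK chevE8 K (pI j) *ᵥ v = -(al j v) • ev chevE8 K (pI j) + v (nx j) • XColumns.hv chevE8 K (hI j).val := by
  refine adK_of (pI_lt j) h2 (b := -(v (nx j)) • ev chevE8 K (pI j)) fun t => ?_
  rw [x_p hv]
  simp only [smul_add, smul_smul, sub_smul, neg_smul, smul_neg]
  have e : ∀ x y z w : chevE8.Idx → K, x + (-y - z) + w = x + (-y + w) + -z := by intros; abel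
  exact e _ _ _ _

theorem ad_n (h2 : (2 : K) ≠ 0) {v : chevE8.Idx → K} (hv : Su v) (j : Fin 4) :
    adK chevE8 K (nI j) *ᵥ v = (al j v) • ev chevE8 K (nI j) - v (px j) • XColumns.hv chevE8 K (hI j).val := by
  refine adK_of (nI_lt j) h2 (b := -(v (px j)) • ev chevE8 K (nI j)) fun t => ?_
  rw [x_n hv]
  simp only [smul_sub, smul_smul, sub_smul, neg_smul, smul_neg]
  have e : ∀ x y z w : chevE8.Idx → K, x + (y - z) - w = x + (y - w) + -z := by intros; abel
  exact e _ _ _ _

theorem br_eq (u v : chevE8.Idx → K) : br chevE8 K u v =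
    (∑ i : Fin chevE8.rank, u (Sum.inl i) • (adR chevE8 K (Sum.inl i) *ᵥ v)) +
    ∑ s : Fin chevE8.nroots, u (Sum.inr s) • (adK chevE8 K s.val *ᵥ v) := by
  unfold br adv
  rw [Matrix.sum_mulVec, Fintype.sum_sum_type]
  congr 1
  · exact Finset.sum_congr rfl fun i _ => Matrix.smul_mulVec _ _ _
  · exact Finset.sum_congr rfl fun i _ => Matrix.smul_mulVec _ _ _

theorem adH_apply (i : Fin chevE8.rank) (v : chevE8.Idx → K) :
    (∀ k, (adR chevE8 K (Sum.inl i) *ᵥ v) (Sum.inl k) = 0) ∧
    ∀ s : Fin chevE8.nroots, (adR chevE8 K (Sum.inl i) *ᵥ v) (Sum.inr s) = (chevE8.cartan i.val s.val : K) * v (Sum.inr s) := by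
  have e : adR chevE8 K (Sum.inl i) = Matrix.diagonal (Sum.elim (fun _ => (0 : K))
      (fun s : Fin chevE8.nroots => (chevE8.cartan i.val s.val : K))) := by
    rw [adR_def, adA_inl]
    unfold adH
    rw [Matrix.diagonal_map (map_zero _)]
    congr 1
    funext a
    rcases a with k | s
    · simp
    · rfl
  rw [e]
  constructor
  · intro k
    rw [Matrix.mulVec_diagonal, Sum.elim_inl, zero_mul]
  · intro s
    rw [Matrix.mulVec_diagonal, Sum.elim_inr]

theorem br_px (h2 : (2 : K) ≠ 0) {u v : chevE8.Idx → K} (hu : Su u) (hv : Su v) (j : Fin 4) :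
    br chevE8 K u v (px j) = al j u * v (px j) - u (px j) * al j v := by
  classical
  rw [br_eq, Pi.add_apply, Finset.sum_apply, Finset.sum_apply]
  have h1 : ∑ i : Fin chevE8.rank, (u (Sum.inl i) • (adR chevE8 K (Sum.inl i) *ᵥ v)) (px j) = al j u * v (px j) := by
    rw [al_apply, Finset.sum_mul]
    refine Finset.sum_congr rfl fun i _ => ?_
    rw [Pi.smul_apply, smul_eq_mul]
    unfold px
    rw [(adH_apply i v).2]
    ring
  have h3 : ∑ s : Fin chevE8.nroots, (u (Sum.inr s) • (adK chevE8 K s.val *ᵥ v)) (px j) = -(u (px j) * al j v) := by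
    rw [Finset.sum_eq_single (⟨pI j, pI_lt j⟩ : Fin chevE8.nroots)]
    · rw [Pi.smul_apply, smul_eq_mul]
      show u (px j) * (adK chevE8 K (pI j) *ᵥ v) (px j) = _
      rw [ad_p h2 hv, Pi.add_apply, Pi.smul_apply, Pi.smul_apply]
      have e1 : ev chevE8 K (pI j) (px j) = 1 := if_pos rfl
      have e2 : XColumns.hv chevE8 K (hI j).val (px j) = 0 := rfl
      rw [e1, e2]
      simp
    · intro s _ hs
      rw [Pi.smul_apply, smul_eq_mul]
      by_cases h0 : u (Sum.inr s) = 0
      · rw [h0, zero_mul]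
      obtain ⟨i, hi | hi⟩ := hu s h0
      · have hij : i ≠ j := fun h => hs (Fin.ext (by rw [hi, h]))
        rw [hi, ad_p h2 hv, Pi.add_apply, Pi.smul_apply, Pi.smul_apply]
        have e1 : ev chevE8 K (pI i) (px j) = 0 := if_neg fun h => hij (pI_inj _ _ h).symm
        have e2 : XColumns.hv chevE8 K (hI i).val (px j) = 0 := rfl
        rw [e1, e2]
        simp
      · rw [hi, ad_n h2 hv, Pi.sub_apply, Pi.smul_apply, Pi.smul_apply]
        have e1 : ev chevE8 K (nI i) (px j) = 0 := if_neg fun h => pI_ne_nI _ _ h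
        have e2 : XColumns.hv chevE8 K (hI i).val (px j) = 0 := rfl
        rw [e1, e2]
        simp
    · intro h; exact absurd (Finset.mem_univ _) h
  rw [h1, h3, ← sub_eq_add_neg]

theorem br_nx (h2 : (2 : K) ≠ 0) {u v : chevE8.Idx → K} (hu : Su u) (hv : Su v) (j : Fin 4) :
    br chevE8 K u v (nx j) = u (nx j) * al j v - al j u * v (nx j) := by
  classical
  rw [br_eq, Pi.add_apply, Finset.sum_apply, Finset.sum_apply]
  have h1 : ∑ i : Fin chevE8.rank, (u (Sum.inl i) • (adR chevE8 K (Sum.inl i) *ᵥ v)) (nx j) = -(al j u * v (nx j)) := by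
    rw [al_apply, Finset.sum_mul, ← Finset.sum_neg_distrib]
    refine Finset.sum_congr rfl fun i _ => ?_
    rw [Pi.smul_apply, smul_eq_mul]
    unfold nx
    rw [(adH_apply i v).2]
    simp only
    rw [car_n]
    push_cast
    ring
  have h3 : ∑ s : Fin chevE8.nroots, (u (Sum.inr s) • (adK chevE8 K s.val *ᵥ v)) (nx j) = u (nx j) * al j v := by
    rw [Finset.sum_eq_single (⟨nI j, nI_lt j⟩ : Fin chevE8.nroots)]
    · rw [Pi.smul_apply, smul_eq_mul]
      show u (nx j) * (adK chevE8 K (nI j) *ᵥ v) (nx j) = _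
      rw [ad_n h2 hv, Pi.sub_apply, Pi.smul_apply, Pi.smul_apply]
      have e1 : ev chevE8 K (nI j) (nx j) = 1 := if_pos rfl
      have e2 : XColumns.hv chevE8 K (hI j).val (nx j) = 0 := rfl
      rw [e1, e2]
      simp
    · intro s _ hs
      rw [Pi.smul_apply, smul_eq_mul]
      by_cases h0 : u (Sum.inr s) = 0
      · rw [h0, zero_mul]
      obtain ⟨i, hi | hi⟩ := hu s h0
      · rw [hi, ad_p h2 hv, Pi.add_apply, Pi.smul_apply, Pi.smul_apply]
        have e1 : ev chevE8 K (pI i) (nx j) = 0 := if_neg fun h => pI_ne_nI _ _ h.symm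
        have e2 : XColumns.hv chevE8 K (hI i).val (nx j) = 0 := rfl
        rw [e1, e2]
        simp
      · have hij : i ≠ j := fun h => hs (Fin.ext (by rw [hi, h]))
        rw [hi, ad_n h2 hv, Pi.sub_apply, Pi.smul_apply, Pi.smul_apply]
        have e1 : ev chevE8 K (nI i) (nx j) = 0 := if_neg fun h => hij (nI_inj _ _ h).symm
        have e2 : XColumns.hv chevE8 K (hI i).val (nx j) = 0 := rfl
        rw [e1, e2]
        simp
    · intro h; exact absurd (Finset.mem_univ _) h
  rw [h1, h3]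
  ring

theorem br_hx (h2 : (2 : K) ≠ 0) {u v : chevE8.Idx → K} (hu : Su u) (hv : Su v) (j : Fin 4) :
    br chevE8 K u v (hx (hI j)) = u (px j) * v (nx j) - u (nx j) * v (px j) := by
  classical
  rw [br_eq, Pi.add_apply, Finset.sum_apply, Finset.sum_apply]
  have h1 : ∑ i : Fin chevE8.rank, (u (Sum.inl i) • (adR chevE8 K (Sum.inl i) *ᵥ v)) (hx (hI j)) = 0 := by
    refine Finset.sum_eq_zero fun i _ => ?_
    rw [Pi.smul_apply, smul_eq_mul]
    unfold hx
    rw [(adH_apply i v).1, mul_zero]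
  have e3 : ∀ i : Fin 4, XColumns.hv chevE8 K (hI i).val (hx (hI j)) = if i = j then 1 else 0 := by
    intro i
    unfold hx
    rw [hv_inl]
    by_cases h : i = j
    · subst h; simp
    · rw [if_neg h, if_neg fun h' => h (hI_inj _ _ (Fin.ext h')).symm]
  have e4 : ∀ r : ℕ, ev chevE8 K r (hx (hI j)) = 0 := fun r => rfl
  let f : Fin chevE8.nroots → K := fun s => (u (Sum.inr s) • (adK chevE8 K s.val *ᵥ v)) (hx (hI j))
  have h3 : ∑ s : Fin chevE8.nroots, f s = u (px j) * v (nx j) - u (nx j) * v (px j) := by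
    have hne : (⟨pI j, pI_lt j⟩ : Fin chevE8.nroots) ≠ ⟨nI j, nI_lt j⟩ := fun h => pI_ne_nI j j (congrArg Fin.val h)
    have h4 : ∑ s ∈ ({⟨pI j, pI_lt j⟩, ⟨nI j, nI_lt j⟩} : Finset (Fin chevE8.nroots)), f s = ∑ s : Fin chevE8.nroots, f s := by
      refine Finset.sum_subset (Finset.subset_univ _) ?_
      intro s _ hs
      rw [Finset.mem_insert, Finset.mem_singleton, not_or] at hs
      show (u (Sum.inr s) • (adK chevE8 K s.val *ᵥ v)) (hx (hI j)) = 0
      rw [Pi.smul_apply, smul_eq_mul]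
      by_cases h0 : u (Sum.inr s) = 0
      · rw [h0, zero_mul]
      obtain ⟨i, hi | hi⟩ := hu s h0
      · have hij : i ≠ j := fun h => hs.1 (Fin.ext (by rw [hi, h]))
        rw [hi, ad_p h2 hv, Pi.add_apply, Pi.smul_apply, Pi.smul_apply, e4, e3, if_neg hij]
        simp
      · have hij : i ≠ j := fun h => hs.2 (Fin.ext (by rw [hi, h]))
        rw [hi, ad_n h2 hv, Pi.sub_apply, Pi.smul_apply, Pi.smul_apply, e4, e3, if_neg hij]
        simp
    rw [← h4, Finset.sum_pair hne]
    have h5 : f ⟨pI j, pI_lt j⟩ = u (px j) * v (nx j) := by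
      show (u (px j) • (adK chevE8 K (pI j) *ᵥ v)) (hx (hI j)) = _
      rw [Pi.smul_apply, smul_eq_mul, ad_p h2 hv, Pi.add_apply, Pi.smul_apply, Pi.smul_apply, e4, e3, if_pos rfl]
      simp
    have h6 : f ⟨nI j, nI_lt j⟩ = -(u (nx j) * v (px j)) := by
      show (u (nx j) • (adK chevE8 K (nI j) *ᵥ v)) (hx (hI j)) = _
      rw [Pi.smul_apply, smul_eq_mul, ad_n h2 hv, Pi.sub_apply, Pi.smul_apply, Pi.smul_apply, e4, e3, if_pos rfl]
      simp
    rw [h5, h6, ← sub_eq_add_neg]
  rw [h1, zero_add]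
  exact h3

/-- **commuting vectors have proportional components** -/
theorem prop_of_br (h2 : (2 : K) ≠ 0) {u v : chevE8.Idx → K} (hu : Su u) (hv : Su v) (h : br chevE8 K u v = 0)
    {j : Fin 4} (h0 : cp j u ≠ 0) : ∃ c : K, cp j v = c • cp j u := by
  have h3 := br_px h2 hu hv j
  have h4 := br_nx h2 hu hv j
  have h5 := br_hx h2 hu hv j
  rw [h, Pi.zero_apply] at h3 h4 h5
  rw [cp_eq] at h0
  rw [cp_eq, cp_eq]
  by_cases a1 : u (px j) = 0
  · by_cases a2 : u (nx j) = 0
    · have a3 : al j u ≠ 0 := by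
        intro a3
        apply h0
        rw [a1, a2, a3]
        funext k; fin_cases k <;> rfl
      rw [a1, zero_mul, sub_zero] at h3
      rw [a2, zero_mul, zero_sub] at h4
      have b1 : v (px j) = 0 := (mul_eq_zero.1 h3.symm).resolve_left a3
      have b2 : v (nx j) = 0 := (mul_eq_zero.1 (neg_eq_zero.1 h4.symm)).resolve_left a3
      refine ⟨al j v / al j u, ?_⟩
      rw [a1, a2, b1, b2]
      funext k
      fin_cases k
      · simp
      · simp
      · simp [div_mul_cancel₀ _ a3]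
    · refine ⟨v (nx j) / u (nx j), ?_⟩
      rw [a1, zero_mul, zero_sub] at h5
      have b1 : v (px j) = 0 := (mul_eq_zero.1 (neg_eq_zero.1 h5.symm)).resolve_left a2
      funext k
      fin_cases k
      · simp [a1, b1]
      · simp [div_mul_cancel₀ _ a2]
      · show al j v = v (nx j) / u (nx j) * al j u
        field_simp
        linear_combination -h4
  · refine ⟨v (px j) / u (px j), ?_⟩
    funext k
    fin_cases k
    · simp [div_mul_cancel₀ _ a1]
    · show v (nx j) = v (px j) / u (px j) * u (nx j)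
      field_simp
      linear_combination -h5
    · show al j v = v (px j) / u (px j) * al j u
      field_simp
      linear_combination h3

end Cfsg.Agent.H948.P3
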