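import Mathlib

/-!
# S5921, P3: counting the values of a quadratic form
-/

set_option autoImplicit false
set_option linter.unusedSectionVars false

namespace Cfsg.Agent.H948.P3

open Module

variable {K : Type*} [Field K]

/-- the form -/
def Qg (v : Fin 3 → K) : K := v 0 * v 1 + v 2 ^ 2

/-- its polar form -/
def Bg (v w : Fin 3 → K) : K := v 0 * w 1 + w 0 * v 1 + 2 * (v 2 * w 2)

theorem Qg_add (v w : Fin 3 → K) : Qg (v + w) = Qg v + Qg w + Bg v w := by
  unfold Qg Bg
  simp only [Pi.add_apply]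
  ring

theorem Bg_add_left (u v w : Fin 3 → K) : Bg (u + v) w = Bg u w + Bg v w := by
  unfold Bg
  simp only [Pi.add_apply]
  ring

theorem Bg_smul_left (c : K) (v w : Fin 3 → K) : Bg (c • v) w = c * Bg v w := by
  unfold Bg
  simp only [Pi.smul_apply, smul_eq_mul]
  ring

theorem Bg_comm (v w : Fin 3 → K) : Bg v w = Bg w v := by
  unfold Bg
  ring

/-- the roots of `X ^ 81 - X` -/
theorem exists_roots (K : Type*) [Field K] : ∃ R : Finset K, R.card ≤ 81 ∧ ∀ x : K, x ^ 81 = x → x ∈ R := by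
  classical
  let p : Polynomial K := Polynomial.X ^ 81 - Polynomial.X
  have hp : p ≠ 0 := by
    intro h
    have h1 : p.coeff 81 = 1 := by
      simp [p, Polynomial.coeff_X]
    rw [h, Polynomial.coeff_zero] at h1
    exact zero_ne_one h1
  have hd : p.natDegree ≤ 81 := by
    refine (Polynomial.natDegree_sub_le _ _).trans ?_
    simp
  refine ⟨p.roots.toFinset, (Multiset.toFinset_card_le _).trans ((Polynomial.card_roots' p).trans hd), fun x hx => ?_⟩
  rw [Multiset.mem_toFinset, Polynomial.mem_roots hp]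
  show Polynomial.eval x (Polynomial.X ^ 81 - Polynomial.X) = 0
  simp [hx]

variable {P : Set (Fin 3 → K)} (hP : P.Finite)
  (hadd : ∀ x ∈ P, ∀ y ∈ P, x + y ∈ P) (hsub : ∀ x ∈ P, ∀ y ∈ P, x - y ∈ P)
  (hPhi : ∀ (b : Finset (Fin 3 → K)) (l : (Fin 3 → K) → K), (∀ x ∈ b, x ∈ P) → ∀ y ∈ P, y = ∑ x ∈ b, l x • x →
    y = ∑ x ∈ b, l x ^ 81 • x)

include hP hPhi

/-- the structure of `P` -/
theorem exists_basis : ∃ b : Finset (Fin 3 → K), (∀ x ∈ b, x ∈ P) ∧ b.card ≤ 3 ∧ P.ncard ≤ 81 ^ b.card ∧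
    Submodule.span K (b : Set (Fin 3 → K)) = Submodule.span K P ∧ LinearIndependent K (fun x : b => (x : Fin 3 → K)) := by
  classical
  obtain ⟨b, hb, hspan, hli⟩ := exists_linearIndependent K P
  have hfin : b.Finite := hP.subset hb
  obtain ⟨B, rfl⟩ : ∃ B : Finset (Fin 3 → K), (B : Set (Fin 3 → K)) = b := ⟨hfin.toFinset, hfin.coe_toFinset⟩
  have hli' : LinearIndependent K (fun x : B => (x : Fin 3 → K)) := hli
  have hc : B.card ≤ 3 := by
    have := hli'.fintype_card_le_finrank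
    rw [Fintype.card_coe, Module.finrank_fin_fun] at this
    exact this
  refine ⟨B, fun x hx => hb hx, hc, ?_, hspan, hli'⟩
  obtain ⟨R, hR, hRx⟩ := exists_roots K
  -- coordinates
  have hco : ∀ y ∈ P, ∃ l : (Fin 3 → K) → K, (∀ x ∈ B, l x ∈ R) ∧ y = ∑ x ∈ B, l x • x := by
    intro y hy
    have h1 : y ∈ Submodule.span K (B : Set (Fin 3 → K)) := by rw [hspan]; exact Submodule.subset_span hy
    obtain ⟨l, -, hl⟩ := Submodule.mem_span_finset.1 h1
    have h2 := hPhi B l (fun x hx => hb hx) y hy hl.symm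
    refine ⟨l, fun x hx => hRx _ ?_, hl.symm⟩
    have h3 : ∑ x ∈ B, (l x ^ 81 - l x) • x = 0 := by
      rw [← sub_eq_zero.2 (h2.symm.trans hl.symm), ← Finset.sum_sub_distrib]
      exact Finset.sum_congr rfl fun x _ => sub_smul _ _ _
    have h4 := (linearIndependent_iff'.1 hli') Finset.univ (fun x => l x ^ 81 - l x) (by
      rw [Finset.sum_coe_sort B (fun x => (l x ^ 81 - l x) • x)]
      exact h3) ⟨x, hx⟩ (Finset.mem_univ _)
    exact sub_eq_zero.1 h4
  choose! l hlR hl using hco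
  let F : (Fin 3 → K) → (B → R) := fun y => fun x => if h : y ∈ P then ⟨l y x, hlR y h x x.2⟩ else
    ⟨0, hRx 0 (by norm_num)⟩
  have hinj : Set.InjOn F P := by
    intro y hy z hz h
    rw [hl y hy, hl z hz]
    refine Finset.sum_congr rfl fun x hx => ?_
    have h1 := congrArg Subtype.val (congrFun h ⟨x, hx⟩)
    simp only [F, dif_pos hy, dif_pos hz] at h1
    rw [h1]
  have h1 : P.ncard ≤ Nat.card (B → R) := by
    rw [← hinj.ncard_image, ← Set.ncard_univ]
    exact Set.ncard_le_ncard (Set.subset_univ _) (Set.toFinite _)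
  refine h1.trans ?_
  rw [Nat.card_pi, Finset.prod_const, Nat.card_eq_fintype_card, Fintype.card_coe, Finset.card_univ, Fintype.card_coe]
  exact Nat.pow_le_pow_left hR _

include hadd hsub

/-- **the count** -/
theorem count (h2 : (2 : K) ≠ 0) {O : Set (Fin 3 → K)} (hO : O ⊆ P) {c : K} (hc : ∀ x ∈ O, Qg x = c) :
    O.ncard < 531360 := by
  classical
  by_contra hcon
  push Not at hcon
  obtain ⟨b, hbP, hb3, hbc, hspan, hli⟩ := exists_basis hP hPhi
  have hOP := Set.ncard_le_ncard hO hP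
  have hb : b.card = 3 := by
    by_contra h
    have h1 : b.card ≤ 2 := by omega
    have h4 : (81 : ℕ) ^ b.card ≤ 81 ^ 2 := Nat.pow_le_pow_right (by norm_num) h1
    omega
  rw [hb] at hbc
  have hspan' : Submodule.span K P = ⊤ := by
    rw [← hspan]
    have h1 := finrank_span_finset_eq_card (R := K) hli
    apply Submodule.eq_top_of_finrank_eq
    rw [h1, hb, Module.finrank_fin_fun]
  -- few exceptions
  have hex : ∀ w ∈ P, {u | u ∈ P ∧ u + w ∉ O}.ncard ≤ 81 := by
    intro w hw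
    have h1 : {u | u ∈ P ∧ u + w ∉ O}.ncard ≤ (P \ O).ncard := by
      refine Set.ncard_le_ncard_of_injOn (fun u => u + w) ?_ (fun a _ b _ h => add_right_cancel h)
        (hP.subset Set.sdiff_subset)
      rintro u ⟨hu, hu'⟩
      exact ⟨hadd u hu w hw, hu'⟩
    have h3 : (P \ O).ncard = P.ncard - O.ncard := Set.ncard_sdiff hO (hP.subset hO)
    rw [h3] at h1
    omega
  have h0 : (0 : Fin 3 → K) ∈ P := by
    have hne : P.Nonempty := by
      rw [Set.nonempty_iff_ne_empty]
      intro h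
      rw [h, Set.ncard_empty] at hOP
      omega
    obtain ⟨x, hx⟩ := hne
    have := hsub x hx x hx
    rwa [sub_self] at this
  have hB : ∀ v ∈ P, ∀ x ∈ P, Bg v x = 0 := by
    intro v hv x hx
    have hvx := hadd v hv x hx
    -- an element `u`
    obtain ⟨u, hu, u0, ux, uv, uvx⟩ : ∃ u ∈ P, u ∈ O ∧ u + x ∈ O ∧ u + v ∈ O ∧ u + (v + x) ∈ O := by
      by_contra hno
      push Not at hno
      have h1 : P ⊆ {u | u ∈ P ∧ u + 0 ∉ O} ∪ {u | u ∈ P ∧ u + x ∉ O} ∪ {u | u ∈ P ∧ u + v ∉ O} ∪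
          {u | u ∈ P ∧ u + (v + x) ∉ O} := by
        intro u hu
        by_cases a1 : u ∈ O
        · by_cases a2 : u + x ∈ O
          · by_cases a3 : u + v ∈ O
            · exact Or.inr ⟨hu, hno u hu a1 a2 a3⟩
            · exact Or.inl (Or.inr ⟨hu, a3⟩)
          · exact Or.inl (Or.inl (Or.inr ⟨hu, a2⟩))
        · exact Or.inl (Or.inl (Or.inl ⟨hu, by rwa [add_zero]⟩))
      have hf : ∀ w, {u | u ∈ P ∧ u + w ∉ O}.Finite := fun w => hP.subset fun u hu => hu.1
      have h3 := Set.ncard_le_ncard h1 (((hf _).union (hf _)).union (hf _) |>.union (hf _))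
      have h4 := Set.ncard_union_le ({u | u ∈ P ∧ u + 0 ∉ O} ∪ {u | u ∈ P ∧ u + x ∉ O} ∪ {u | u ∈ P ∧ u + v ∉ O})
        {u | u ∈ P ∧ u + (v + x) ∉ O}
      have h5 := Set.ncard_union_le ({u | u ∈ P ∧ u + 0 ∉ O} ∪ {u | u ∈ P ∧ u + x ∉ O}) {u | u ∈ P ∧ u + v ∉ O}
      have h6 := Set.ncard_union_le {u | u ∈ P ∧ u + 0 ∉ O} {u | u ∈ P ∧ u + x ∉ O}
      have e0 := hex 0 h0
      have e1 := hex x hx
      have e2 := hex v hv
      have e3 := hex (v + x) hvx
      omega
    have h1 := hc _ u0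
    have h3 := hc _ ux
    have h4 := hc _ uv
    have h5 := hc _ uvx
    rw [Qg_add] at h3
    rw [← add_assoc, Qg_add, Bg_add_left] at h5
    linear_combination h1 - h3 - h4 + h5
  -- the form vanishes
  have hB2 : ∀ x ∈ P, ∀ v : Fin 3 → K, Bg v x = 0 := by
    intro x hx v
    have hv : v ∈ Submodule.span K P := by rw [hspan']; trivial
    induction hv using Submodule.span_induction with
    | mem y hy => exact hB y hy x hx
    | zero => simp [Bg]
    | add y z _ _ hy hz => rw [Bg_add_left, hy, hz, add_zero]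
    | smul a y _ hy => rw [Bg_smul_left, hy, mul_zero]
  have hB3 : ∀ v w : Fin 3 → K, Bg v w = 0 := by
    intro v w
    have hw : w ∈ Submodule.span K P := by rw [hspan']; trivial
    induction hw using Submodule.span_induction with
    | mem y hy => exact hB2 y hy v
    | zero => simp [Bg]
    | add y z _ _ hy hz => rw [Bg_comm, Bg_add_left, Bg_comm y, Bg_comm z, hy, hz, add_zero]
    | smul a y _ hy => rw [Bg_comm, Bg_smul_left, Bg_comm y, hy, mul_zero]
  have h1 := hB3 ![1, 0, 0] ![0, 1, 0]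
  simp [Bg] at h1

end Cfsg.Agent.H948.P3
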