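import Mathlib
import Cfsg.Agent.H948.P3.Grp
import Cfsg.Agent.H948.P3.Count

/-!
# S5921, P3: the fixed vectors of `y` in the frame of `t`
-/

set_option autoImplicit false
set_option linter.unusedSectionVars false
set_option maxRecDepth 100000

namespace Cfsg.Agent.H948.P3

open CoxeterSystem Cfsg Cfsg.Lie Cfsg.Lie.ChevalleyDatum
open Cfsg.Agent.ChevalleyStructure Cfsg.Agent.ChevalleyStructure.Elts Cfsg.Agent.ChevalleyStructure.CoxeterGeom
  Cfsg.Agent.ChevalleyStructure.CoxeterGeomTypes Cfsg.Agent.ChevalleyStructure.NPerm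
  Cfsg.Agent.ChevalleyStructure.RootVec Cfsg.Agent.ChevalleyStructure.RootVecTab
open Cfsg.Agent.Tits.Roots Cfsg.Agent.Tits.Core Cfsg.Agent.Nodes Cfsg.Agent.Nodes.Reps Cfsg.Agent.Nodes.BNOf
  Cfsg.Agent.Nodes.RGDChev Cfsg.Agent.Nodes.Bruhat Cfsg.Agent.Nodes.SubComb Cfsg.Agent.Nodes.Coroot
  Cfsg.Agent.Nodes.NormalForm
open Cfsg.Agent.KFacts.RgdField Cfsg.Agent.KFacts.RgdChevCoord Cfsg.Agent.BpExc.TorCent Cfsg.Agent.BpExc.TorChev
open Cfsg.Agent.GpExc.Field Cfsg.Agent.BpExc.Tow Cfsg.Agent.BpExc.TowChev Cfsg.Agent.BpExc.Fr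
  Cfsg.Agent.BpExc.LangFr Cfsg.Agent.LangThm Cfsg.Agent.BpExc Cfsg.Agent.H129.TorusChar Cfsg.Agent.H129.TorusMain
open Cfsg.Agent.H720.TorusReal Cfsg.Agent.Nodes.Unique Cfsg.Agent.H897.T5Cent
open Cfsg.Agent.BpExc.FamUntw Cfsg.Agent.BpExc.FamInst Cfsg.Agent.BpExc.FamField
open Cfsg.Agent.H942.E8Tab Cfsg.Agent.H942.E8Alc Cfsg.Agent.H942.CB
open Cfsg.Agent.H944.Tab Cfsg.Agent.H944.Kac
open Cfsg.Agent.H540.E8C (KK cX_of_vals)
open Matrix

/-- `E₈(3)` -/
abbrev Ge : Type := ↥(chevE8.group (ZMod 3))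

/-- the vectors -/
abbrev Lv : Type := chevE8.Idx → ZMod 3

/-- the embedding -/
noncomputable abbrev ee : Ge →* ↥(chevE8.group KK) := emb e8T.inList (algebraMap (ZMod 3) KK)

/-- the action -/
def ac (g : Ge) (v : Lv) : Lv := ((g : GL chevE8.Idx (ZMod 3)) : Matrix chevE8.Idx chevE8.Idx (ZMod 3)) *ᵥ v

theorem ac_mul (g g' : Ge) (v : Lv) : ac (g * g') v = ac g (ac g' v) := by
  unfold ac
  rw [Subgroup.coe_mul, Units.val_mul, Matrix.mulVec_mulVec]

theorem ac_one (v : Lv) : ac 1 v = v := by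
  unfold ac
  rw [Subgroup.coe_one, Units.val_one, Matrix.one_mulVec]

/-- the frame -/
structure Dt (y : Ge) where
  z : ↥(chevE8.group KK)
  t : ↥(chevE8.group KK)
  n : ↥(chevE8.group KK)
  ζ : KK
  hζ : IsPrimitiveRoot ζ 40
  htT : t ∈ TT chevE8 KK
  hX : ∀ a, cX e8T t a = ζ ^ fz (YZ V3) a
  hn : Rp cs8 hNs (word w3) n
  hnt : n * sg t * n⁻¹ = t
  hsz : z⁻¹ * sg z = n
  hzt : z⁻¹ * ee y * z = t
  ht : t ^ 40 = 1

theorem V3_len : (YZ V3).length = 8 := by decide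

theorem tab_w3 : ((List.range 8).all fun i => decide (((actW w3 (YZ V3)).getD i 0 - 3 * (YZ V3).getD i 0) % (40 : ℤ) = 0)) =
    true := by decide +kernel

theorem exists_dt {y : Ge} (hy : y ^ 40 = 1) {ζ : KK} (hζ : IsPrimitiveRoot ζ 40) {z t : ↥(chevE8.group KK)}
    (hz : z⁻¹ * ee y * z = t) (htT : t ∈ TT chevE8 KK) (hv : ∀ i, cX e8T t (sr i) = ζ ^ (vecL 40 V3 i).val) :
    Nonempty (Dt y) := by
  have hX : ∀ a, cX e8T t a = ζ ^ fz (YZ V3) a := cX_of_vals htT hζ (by norm_num) hv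
  have hζ0 : ζ ≠ 0 := hζ.ne_zero (by norm_num)
  have hwt : ∀ a, cX e8T t (rep cs8 e8T.isCartan (word w3) a) = cX e8T t a ^ 3 ^ 1 := by
    intro a
    have hw3 : (40 : ℤ) ∣ fz (YZ V3) (rep cs8 e8T.isCartan (word w3) a) - 3 * fz (YZ V3) a := by
      rw [← fz_actW w3 w3_lt V3_len]
      exact fz_dvd (fun i => Int.dvd_of_emod_eq_zero (of_decide_eq_true (all_range tab_w3 i))) a
    rw [hX, hX]
    obtain ⟨m, hm⟩ := hw3
    have h1 : fz (YZ V3) (rep cs8 e8T.isCartan (word w3) a) = fz (YZ V3) a * 3 + (40 : ℕ) * m := by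
      push_cast
      linarith
    rw [h1, zpow_add₀ hζ0, _root_.zpow_mul, _root_.zpow_mul, zpow_natCast ζ 40, hζ.pow_eq_one, _root_.one_zpow, mul_one]
    exact zpow_ofNat _ 3
  have hn : Nat.card (ZMod 3) = 3 ^ 1 := by rw [Nat.card_eq_fintype_card, ZMod.card]; rfl
  have hσF : IsFrob 3 1 sg := phi_isFrob 3 1
  have F : Fr cs8 e8T.isCartan (TT chevE8 KK) (XX chevE8 8 KK) sg (AddEquiv.refl _) := phi_fr e8T cs8 3 lf 1
  have hσx : sg (ee y) = ee y := Cfsg.Agent.H378.TorFin.phi_emb' e8T _ 3 hn y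
  obtain ⟨n1, hn1⟩ := exists_rp cs8 hNs (word w3)
  have hnt : n1 * sg t * n1⁻¹ = t := (tau_iff e8T cs8 lf hσF F hn1 htT).2 hwt
  have htN : t ^ 40 = 1 := by
    rw [← hz]
    have h1 : (z⁻¹ * ee y * z) ^ 40 = z⁻¹ * (ee y) ^ 40 * z := by
      have := conj_pow (i := 40) (a := z⁻¹) (b := ee y)
      rwa [inv_inv] at this
    rw [h1, ← map_pow, hy, map_one, mul_one, inv_mul_cancel]
  obtain ⟨z1, hz1, hz2⟩ := Cfsg.Agent.H897.T5Cent.star e8T cs8 lf 3 con40 one_pos hσF F invC_E8 one_ne_zero hn1 hσx hz htT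
    htN hnt
  exact ⟨⟨z1, t, n1, ζ, hζ, htT, hX, hn1, hnt, hz1, hz2, htN⟩⟩

variable {y : Ge} (D : Dt y)

/-- the vector in the frame -/
noncomputable def va (a : Lv) : chevE8.Idx → KK := mt D.z⁻¹ *ᵥ fun i => algebraMap (ZMod 3) KK (a i)

theorem va_add (a b : Lv) : va D (a + b) = va D a + va D b := by
  unfold va
  rw [← Matrix.mulVec_add]
  congr 1
  funext i
  exact map_add _ _ _

theorem va_sub (a b : Lv) : va D (a - b) = va D a - va D b := by
  unfold va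
  rw [← Matrix.mulVec_sub]
  congr 1
  funext i
  exact map_sub _ _ _

theorem mt_inv_mul (g : ↥(chevE8.group KK)) (u : chevE8.Idx → KK) : mt g *ᵥ (mt g⁻¹ *ᵥ u) = u := by
  rw [Matrix.mulVec_mulVec, ← mt_mul, mul_inv_cancel, mt_one, Matrix.one_mulVec]

theorem va_inj {a b : Lv} (h : va D a = va D b) : a = b := by
  have h1 := congrArg (fun u => mt D.z *ᵥ u) h
  unfold va at h1
  simp only [mt_inv_mul] at h1
  funext i
  exact (algebraMap (ZMod 3) KK).injective (congrFun h1 i)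

theorem ee_ac (g : Ge) (v : Lv) : mt (ee g) *ᵥ (fun i => algebraMap (ZMod 3) KK (v i)) =
    fun i => algebraMap (ZMod 3) KK (ac g v i) := by
  rw [mt, coe_emb, coe_glMap]
  funext i
  exact (RingHom.map_mulVec (algebraMap (ZMod 3) KK) _ v i).symm

/-- the elements commuting with `y` -/
theorem va_ac {m : Ge} (hm : m * y = y * m) : ∃ m' : ↥(chevE8.group KK), m' * D.t = D.t * m' ∧
    ∀ a, va D (ac m a) = mt m' *ᵥ va D a := by
  refine ⟨D.z⁻¹ * ee m * D.z, ?_, fun a => ?_⟩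
  · rw [← D.hzt]
    have h1 : ee m * ee y = ee y * ee m := by rw [← map_mul, hm, map_mul]
    calc D.z⁻¹ * ee m * D.z * (D.z⁻¹ * ee y * D.z) = D.z⁻¹ * (ee m * ee y) * D.z := by group
      _ = D.z⁻¹ * (ee y * ee m) * D.z := by rw [h1]
      _ = _ := by group
  · unfold va
    rw [Matrix.mulVec_mulVec, ← mt_mul, mul_inv_cancel_right, mt_mul, ← Matrix.mulVec_mulVec, ee_ac]

theorem va_su {a : Lv} (ha : ac y a = a) : Su (va D a) := by
  rw [← su_iff D.hζ D.htT D.hX]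
  unfold va
  rw [Matrix.mulVec_mulVec, ← mt_mul]
  have h1 : D.t * D.z⁻¹ = D.z⁻¹ * ee y := by rw [← D.hzt]; group
  rw [h1, mt_mul, ← Matrix.mulVec_mulVec, ee_ac, ha]

theorem pow_three (c : ZMod 3) : c ^ 3 = c := by revert c; decide

theorem va_fr (a : Lv) : mt D.n *ᵥ Fv (va D a) = va D a := by
  unfold va
  rw [Fv_mt, Matrix.mulVec_mulVec, ← mt_mul]
  have h1 : D.n * sg D.z⁻¹ = D.z⁻¹ := by rw [← D.hsz, map_inv]; group
  have h2 : Fv (fun i => algebraMap (ZMod 3) KK (a i)) = fun i => algebraMap (ZMod 3) KK (a i) := by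
    funext i
    show (algebraMap (ZMod 3) KK (a i)) ^ 3 = _
    rw [← map_pow, pow_three]
  rw [h1, h2]

/-- **the step** -/
theorem step {ι : Type*} (s : Finset ι) (l : ι → KK) (g : ι → Lv) (hg : ∀ i ∈ s, ac y (g i) = g i) {a : Lv}
    (ha : ac y a = a) {j : Fin 4} (h : cp j (va D a) = ∑ i ∈ s, l i • cp j (va D (g i))) :
    cp (cy j) (va D a) = ∑ i ∈ s, l i ^ 3 • cp (cy j) (va D (g i)) := by
  have h1 : Su (va D a - ∑ i ∈ s, l i • va D (g i)) := by
    rw [sub_eq_add_neg, ← neg_one_smul KK]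
    exact (va_su D ha).add ((Su.sum s _ fun i hi => (va_su D (hg i hi)).smul _).smul _)
  have h2 : cp j (va D a - ∑ i ∈ s, l i • va D (g i)) = 0 := by
    rw [map_sub, map_sum, h, sub_eq_zero]
    exact Finset.sum_congr rfl fun i _ => (map_smul _ _ _).symm
  have h3 := tw_ker D.hζ D.htT D.hX D.hn D.hnt h1 h2
  rw [Fv_sub, Fv_sum, Matrix.mulVec_sub, va_fr, Matrix.mulVec_sum, map_sub, map_sum, sub_eq_zero] at h3
  rw [h3]
  refine Finset.sum_congr rfl fun i _ => ?_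
  rw [Fv_smul, Matrix.mulVec_smul, va_fr, map_smul]

theorem step_zero {a : Lv} (ha : ac y a = a) {j : Fin 4} (h : cp j (va D a) = 0) : cp (cy j) (va D a) = 0 := by
  have := step D (∅ : Finset Unit) (fun _ => 0) (fun _ => 0) (fun i hi => absurd hi (Finset.notMem_empty i)) ha
    (j := j) (by rw [Finset.sum_empty]; exact h)
  rwa [Finset.sum_empty] at this

theorem all_zero {a : Lv} (ha : ac y a = a) (h : cp 0 (va D a) = 0) (j : Fin 4) : cp j (va D a) = 0 := by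
  have h1 := step_zero D ha h
  have h2 := step_zero D ha h1
  have h3 := step_zero D ha h2
  fin_cases j
  · exact h
  · exact h1
  · exact h3
  · exact h2

theorem zero_of {a : Lv} (ha : ac y a = a) {j : Fin 4} (h : cp j (va D a) = 0) : cp 0 (va D a) = 0 := by
  have h1 := step_zero D ha h
  have h2 := step_zero D ha h1
  have h3 := step_zero D ha h2
  fin_cases j
  · exact h
  · exact h3
  · exact h1
  · exact h2

theorem step4 (s : Finset (Fin 3 → KK)) (l : (Fin 3 → KK) → KK) (g : (Fin 3 → KK) → Lv) (hg : ∀ i ∈ s, ac y (g i) = g i)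
    {a : Lv} (ha : ac y a = a) (h : cp 0 (va D a) = ∑ i ∈ s, l i • cp 0 (va D (g i))) :
    cp 0 (va D a) = ∑ i ∈ s, l i ^ 81 • cp 0 (va D (g i)) := by
  have h1 := step D s l g hg ha h
  have h2 := step D s (fun i => l i ^ 3) g hg ha h1
  have h3 := step D s (fun i => (l i ^ 3) ^ 3) g hg ha h2
  have h4 := step D s (fun i => ((l i ^ 3) ^ 3) ^ 3) g hg ha h3
  have e : ∀ c : KK, (((c ^ 3) ^ 3) ^ 3) ^ 3 = c ^ 81 := fun c => by rw [← pow_mul, ← pow_mul, ← pow_mul]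
  have e0 : cy (cy (cy (cy 0))) = 0 := cy4 0
  rw [e0] at h4
  rw [h4]
  exact Finset.sum_congr rfl fun i _ => by rw [e]

/-- the set of the components -/
def PP : Set (Fin 3 → KK) := {x | ∃ a : Lv, ac y a = a ∧ cp 0 (va D a) = x}

theorem PP_fin : (PP D).Finite := by
  have : PP D = (fun a : Lv => cp 0 (va D a)) '' {a | ac y a = a} := by
    ext x
    constructor
    · rintro ⟨a, ha, hx⟩
      exact ⟨a, ha, hx⟩
    · rintro ⟨a, ha, hx⟩
      exact ⟨a, ha, hx⟩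
  rw [this]
  exact (Set.toFinite _).image _

theorem ac_add (g : Ge) (v w : Lv) : ac g (v + w) = ac g v + ac g w := Matrix.mulVec_add _ _ _
theorem ac_sub (g : Ge) (v w : Lv) : ac g (v - w) = ac g v - ac g w := Matrix.mulVec_sub _ _ _

theorem PP_add : ∀ x ∈ PP D, ∀ x' ∈ PP D, x + x' ∈ PP D := by
  rintro _ ⟨a, ha, rfl⟩ _ ⟨b, hb, rfl⟩
  exact ⟨a + b, by rw [ac_add, ha, hb], by rw [va_add, map_add]⟩

theorem PP_sub : ∀ x ∈ PP D, ∀ x' ∈ PP D, x - x' ∈ PP D := by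
  rintro _ ⟨a, ha, rfl⟩ _ ⟨b, hb, rfl⟩
  exact ⟨a - b, by rw [ac_sub, ha, hb], by rw [va_sub, map_sub]⟩

theorem PP_phi (b : Finset (Fin 3 → KK)) (l : (Fin 3 → KK) → KK) (hb : ∀ x ∈ b, x ∈ PP D) (x : Fin 3 → KK)
    (hx : x ∈ PP D) (h : x = ∑ i ∈ b, l i • i) : x = ∑ i ∈ b, l i ^ 81 • i := by
  classical
  choose! g hg hg' using hb
  obtain ⟨a, ha, rfl⟩ := hx
  have h1 := step4 D b l g hg ha (h.trans (Finset.sum_congr rfl fun i hi => by rw [hg' i hi]))
  exact h1.trans (Finset.sum_congr rfl fun i hi => by rw [hg' i hi])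

/-- the elements of the centraliser of `y` are good -/
theorem good_ac {m : Ge} (hm : m * y = y * m) : ∃ A : Matrix chevE8.Idx chevE8.Idx KK, Good A ∧
    ∀ a, va D (ac m a) = A *ᵥ va D a := by
  obtain ⟨m', h1, h2⟩ := va_ac D hm
  exact ⟨mt m', good_of_comm D.hζ D.htT D.hX D.ht h1, h2⟩

theorem eq_of_cp {a b : Lv} (ha : ac y a = a) (hb : ac y b = b) (hz : zp (va D a) = zp (va D b))
    (hc : cp 0 (va D a) = cp 0 (va D b)) : a = b := by
  have hab : ac y (a - b) = a - b := by rw [ac_sub, ha, hb]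
  have h1 : va D (a - b) = 0 := by
    refine ext_of_comp (va_su D hab) (by rw [va_sub, map_sub, hz, sub_self]) (all_zero D hab ?_)
    rw [va_sub, map_sub, hc, sub_self]
  rw [va_sub, sub_eq_zero] at h1
  exact va_inj D h1

include D in
/-- **the orbits are short** -/
theorem orbit_lt {a : Lv} (ha : ac y a = a) :
    Set.ncard {b | ∃ m : Ge, m * y = y * m ∧ b = ac m a} < 531360 := by
  classical
  have hfix : ∀ m : Ge, m * y = y * m → ac y (ac m a) = ac m a := by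
    intro m hm
    rw [← ac_mul, ← hm, ac_mul, ha]
  have key := count (K := KK) (P := PP D) (PP_fin D) (PP_add D) (PP_sub D) (PP_phi D) (by
    intro h2
    have := kk3
    have h1 : (1 : KK) = 0 := by linear_combination this - h2
    exact one_ne_zero h1)
    (O := (fun b : Lv => cp 0 (va D b)) '' {b | ∃ m : Ge, m * y = y * m ∧ b = ac m a}) (by
      rintro _ ⟨b, ⟨m, hm, rfl⟩, rfl⟩
      exact ⟨_, hfix m hm, rfl⟩) (c := Qg (cp 0 (va D a))) (by
      rintro _ ⟨b, ⟨m, hm, rfl⟩, rfl⟩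
      obtain ⟨A, hA, hA'⟩ := good_ac D hm
      show Qg (cp 0 (va D (ac m a))) = _
      rw [hA']
      exact hA.q _ (va_su D ha) 0)
  rw [Set.InjOn.ncard_image] at key
  · exact key
  · rintro _ ⟨m, hm, rfl⟩ _ ⟨m', hm', rfl⟩ h
    refine eq_of_cp D (hfix m hm) (hfix m' hm') ?_ h
    obtain ⟨A, hA, hA'⟩ := good_ac D hm
    obtain ⟨A', hB, hB'⟩ := good_ac D hm'
    rw [hA', hB', hA.zp _ (va_su D ha), hB.zp _ (va_su D ha)]

/-- vectors fixed together -/
theorem fix_together {a b : Lv} (ha : ac y a = a) (hb : ac y b = b)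
    (hab : ∀ j, ∃ c : KK, cp j (va D b) = c • cp j (va D a)) {m : Ge} (hm : m * y = y * m) (hma : ac m a = a) :
    ac m b = b := by
  obtain ⟨A, hA, hA'⟩ := good_ac D hm
  have hmb : ac y (ac m b) = ac m b := by rw [← ac_mul, ← hm, ac_mul, hb]
  refine eq_of_cp D hmb hb (by rw [hA', hA.zp _ (va_su D hb)]) ?_
  obtain ⟨c, hc⟩ := hab 0
  have hs : Su (va D b - c • va D a) := by
    rw [sub_eq_add_neg, ← neg_one_smul KK]
    exact (va_su D hb).add (((va_su D ha).smul _).smul _)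
  have h1 := hA.ker _ hs 0 (by rw [map_sub, map_smul, hc, sub_self])
  rw [Matrix.mulVec_sub, Matrix.mulVec_smul, ← hA', ← hA', hma, map_sub, map_smul, ← hc, sub_eq_zero] at h1
  exact h1

end Cfsg.Agent.H948.P3
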