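import Mathlib
import Cfsg.Agent.H948.P3.Va
import Cfsg.Agent.H948.P3.Br
import Cfsg.Agent.H525.E8L.Iface

/-!
# S5921, P3: the conclusion
-/

set_option autoImplicit false
set_option linter.unusedSectionVars false
set_option maxRecDepth 100000

namespace Cfsg.Agent.H948.P3

open CoxeterSystem Cfsg Cfsg.Lie Cfsg.Lie.ChevalleyDatum
open Cfsg.Agent.ChevalleyStructure Cfsg.Agent.ChevalleyStructure.LieAut Cfsg.Agent.ChevalleyStructure.LieAbs
open Cfsg.Agent.KFacts.RgdChevCoord Cfsg.Agent.BpExc.TowChev Cfsg.Agent.H129.TorusChar Cfsg.Agent.Tits.Roots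
open Cfsg.Agent.GpExc.Field Cfsg.Agent.H944.Kac Cfsg.Agent.H944.Tab Cfsg.Agent.H942.E8Alc
open Cfsg.Agent.H942.E8Tab Cfsg.Agent.H942.CB
open Cfsg.Agent.H540.E8C (KK)
open Cfsg.Agent.H971.RV (br rho_br rho_apply br_add_left br_add_right br_smul_left br_smul_right)
open Matrix
open Cfsg.Agent.H943.SL2Rel (h u w)

/-! ### the bracket over the field with three elements -/

theorem mem8 : chevE8 ∈ [chevG2, chevB2, chevD4, chevF4, chevE6, chevE7, chevE8] := by simp

/-- the bracket -/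
noncomputable abbrev bb (a b : Lv) : Lv := br chevE8 (ZMod 3) a b

theorem ac_bb (g : Ge) (a b : Lv) : ac g (bb a b) = bb (ac g a) (ac g b) := by
  have h1 := rho_br (k := ZMod 3) mem8 g a b
  rw [rho_apply, rho_apply, rho_apply] at h1
  exact h1

theorem mt_br (g : ↥(chevE8.group KK)) (a b : chevE8.Idx → KK) :
    mt g *ᵥ br chevE8 KK a b = br chevE8 KK (mt g *ᵥ a) (mt g *ᵥ b) := by
  have h1 := rho_br (k := KK) mem8 g a b
  rw [rho_apply, rho_apply, rho_apply] at h1
  exact h1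

theorem em_bb (a b : Lv) : (fun i => algebraMap (ZMod 3) KK (bb a b i)) =
    br chevE8 KK (fun i => algebraMap (ZMod 3) KK (a i)) (fun i => algebraMap (ZMod 3) KK (b i)) := by
  funext i
  show algebraMap (ZMod 3) KK ((adv (adR chevE8 (ZMod 3)) a *ᵥ b) i) = _
  rw [RingHom.map_mulVec]
  have e : (adv (adR chevE8 (ZMod 3)) a).map (algebraMap (ZMod 3) KK) =
      adv (adR chevE8 KK) (fun i => algebraMap (ZMod 3) KK (a i)) := by
    rw [adv_map]
    have e2 : (fun k => (adR chevE8 (ZMod 3) k).map (algebraMap (ZMod 3) KK)) = adR chevE8 KK := by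
      funext k
      exact adR_map chevE8 _ k
    rw [e2]
  rw [e]
  rfl

theorem va_bb {y : Ge} (D : Dt y) {a b : Lv} (hab : bb a b = 0) : br chevE8 KK (va D a) (va D b) = 0 := by
  unfold va
  rw [← mt_br, ← em_bb, hab]
  have : (fun i : chevE8.Idx => algebraMap (ZMod 3) KK ((0 : Lv) i)) = 0 := by
    funext i
    exact map_zero _
  rw [this, Matrix.mulVec_zero]

theorem kk2 : (2 : KK) ≠ 0 := by
  intro h2
  have := kk3
  have h1 : (1 : KK) = 0 := by linear_combination this - h2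
  exact one_ne_zero h1

/-- **commuting vectors are fixed together** -/
theorem fix_comm {y : Ge} (D : Dt y) {a b : Lv} (ha : ac y a = a) (hb : ac y b = b) (hab : bb a b = 0)
    (h0 : cp 0 (va D a) ≠ 0) {m : Ge} (hm : m * y = y * m) (hma : ac m a = a) : ac m b = b :=
  fix_together D ha hb (fun j => prop_of_br kk2 (va_su D ha) (va_su D hb) (va_bb D hab)
    (fun hj => h0 (zero_of D ha hj))) hm hma

/-- vectors in the centre are fixed by the whole centraliser -/
theorem fix_centre {y : Ge} (D : Dt y) {a : Lv} (ha : ac y a = a) (h0 : cp 0 (va D a) = 0) {m : Ge}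
    (hm : m * y = y * m) : ac m a = a := by
  obtain ⟨A, hA, hA'⟩ := good_ac D hm
  have hma : ac y (ac m a) = ac m a := by rw [← ac_mul, ← hm, ac_mul, ha]
  refine eq_of_cp D hma ha (by rw [hA', hA.zp _ (va_su D ha)]) ?_
  rw [hA', h0]
  exact hA.ker _ (va_su D ha) 0 h0

/-! ### the stabilisers are large -/

theorem ac_zero (g : Ge) : ac g 0 = 0 := Matrix.mulVec_zero _
theorem ac_neg (g : Ge) (v : Lv) : ac g (-v) = - ac g v := Matrix.mulVec_neg _ _

theorem mem_cen {G : Type*} [Group G] {y m : G} : m ∈ Subgroup.centralizer ({y} : Set G) ↔ m * y = y * m :=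
  Subgroup.mem_centralizer_singleton_iff

/-- the centraliser -/
def cen (y : Ge) : Subgroup Ge := Subgroup.centralizer {y}

theorem mem_cen' {y m : Ge} : m ∈ cen y ↔ m * y = y * m := mem_cen

/-- the stabiliser of a vector in the centraliser of `y` -/
def stb (y : Ge) (a : Lv) : Subgroup Ge where
  carrier := {m | m * y = y * m ∧ ac m a = a}
  one_mem' := ⟨by rw [one_mul, mul_one], ac_one a⟩
  mul_mem' := fun {m m'} hm hm' => ⟨by rw [mul_assoc, hm'.1, ← mul_assoc, hm.1, mul_assoc],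
    by rw [ac_mul, hm'.2, hm.2]⟩
  inv_mem' := fun {m} hm => ⟨by
    rw [inv_mul_eq_iff_eq_mul, ← mul_assoc, hm.1, mul_assoc, mul_inv_cancel, mul_one], by
    conv_lhs => rw [← hm.2]
    rw [← ac_mul, inv_mul_cancel, ac_one]⟩

theorem mem_stb {y : Ge} {a : Lv} {m : Ge} : m ∈ stb y a ↔ m * y = y * m ∧ ac m a = a := Iff.rfl

theorem stb_le (y : Ge) (a : Lv) : stb y a ≤ Subgroup.centralizer {y} := fun _ hm =>
  Subgroup.mem_centralizer_singleton_iff.2 hm.1

/-- counting through the fibres -/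
theorem card_le_fib {G V : Type*} [Group G] [Finite G] (C S : Subgroup G) (f : G → V) (T : Set V) (hT : T.Finite)
    (hfT : ∀ m ∈ C, f m ∈ T) (hf : ∀ m ∈ C, ∀ m' ∈ C, f m = f m' → m⁻¹ * m' ∈ S) :
    Nat.card ↥C ≤ Nat.card ↥S * T.ncard := by
  classical
  have := Fintype.ofFinite G
  let s : Finset G := Finset.univ.filter fun m => m ∈ C
  have hs : s.card = Nat.card ↥C := by
    rw [Nat.card_eq_fintype_card, Fintype.card_subtype]
  have h1 := Finset.card_le_mul_card_image (s := s) (f := f) (Nat.card ↥S) (by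
    intro a ha
    rw [Finset.mem_image] at ha
    obtain ⟨m, hm, rfl⟩ := ha
    have hmC : m ∈ C := (Finset.mem_filter.1 hm).2
    have h2 : (s.filter fun x => f x = f m) ⊆ (Finset.univ.filter fun x => x ∈ S).image fun x => m * x := by
      intro x hx
      rw [Finset.mem_filter] at hx
      have hxC : x ∈ C := (Finset.mem_filter.1 hx.1).2
      rw [Finset.mem_image]
      exact ⟨m⁻¹ * x, Finset.mem_filter.2 ⟨Finset.mem_univ _, hf m hmC x hxC hx.2.symm⟩, by rw [mul_inv_cancel_left]⟩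
    refine (Finset.card_le_card h2).trans (Finset.card_image_le.trans (le_of_eq ?_))
    rw [Nat.card_eq_fintype_card, Fintype.card_subtype])
  rw [hs] at h1
  refine h1.trans (Nat.mul_le_mul_left _ ?_)
  rw [← Set.ncard_coe_finset]
  refine Set.ncard_le_ncard ?_ hT
  intro b hb
  rw [Finset.mem_coe, Finset.mem_image] at hb
  obtain ⟨m, hm, rfl⟩ := hb
  exact hfT m (Finset.mem_filter.1 hm).2

theorem card_cent {y : Ge} (D : Dt y) (hy : y ^ 40 = 1) (hv : ∀ i, cX e8T D.t (sr i) = D.ζ ^ (vecL 40 V3 i).val) :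
    42508800 ≤ Nat.card ↥(cen y) := by
  unfold cen
  rw [← bndC3]
  exact cent_le (by norm_num) (by norm_num) chkC3 hy ⟨D.z, D.t, D.ζ, D.hζ, D.hzt, D.htT, hv⟩

theorem arith (M S N : ℕ) (h1 : 42508800 ≤ M) (h2 : N < 531360) (h3 : M ≤ S * N) : 80 < S := by
  by_contra hcon
  push Not at hcon
  have h5 : S * N ≤ 80 * 531359 := Nat.mul_le_mul hcon (by omega)
  omega

theorem finGe : Finite Ge := finite_group

/-- the orbit -/
def orb (y : Ge) (a : Lv) : Set Lv := {b | ∃ m : Ge, m * y = y * m ∧ b = ac m a}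

theorem orb_fin (y : Ge) (a : Lv) : (orb y a).Finite := (Set.finite_univ : (Set.univ : Set Lv).Finite).subset (Set.subset_univ _)

theorem orb_lt {y : Ge} (D : Dt y) {a : Lv} (ha : ac y a = a) : (orb y a).ncard < 531360 := orbit_lt D ha

theorem cent_le_stb (y : Ge) (a : Lv) : Nat.card ↥(cen y) ≤ Nat.card ↥(stb y a) * (orb y a).ncard := by
  have hfinG : Finite Ge := finGe
  refine card_le_fib (G := Ge) (V := Lv) (cen y) (stb y a) (fun m : Ge => ac m a) (orb y a)
    (orb_fin y a) (fun m hm => ⟨m, mem_cen'.1 hm, rfl⟩) ?_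
  intro m hm m' hm' h
  have h1 : m⁻¹ * m' ∈ cen y := mul_mem (inv_mem hm) hm'
  refine mem_stb.2 ⟨mem_cen'.1 h1, ?_⟩
  have h' : ac m a = ac m' a := h
  rw [ac_mul, ← h', ← ac_mul, inv_mul_cancel, ac_one]

/-- orbit and stabiliser -/
theorem card_stb {y : Ge} (D : Dt y) (hM : 42508800 ≤ Nat.card ↥(cen y)) {a : Lv} (ha : ac y a = a) :
    80 < Nat.card ↥(stb y a) :=
  arith _ _ _ hM (orb_lt D ha) (cent_le_stb y a)

end Cfsg.Agent.H948.P3
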