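import Mathlib

/-!
# S5921, P3: the invariant pair of vectors, abstractly
-/

set_option autoImplicit false
set_option linter.unusedVariables false

namespace Cfsg.Agent.H948.P3

/-- **the invariant pair** -/
theorem pair_abs {G V : Type} [Group G] [AddCommGroup V] [Module (ZMod 3) V] [Finite V] (ac : G → V → V)
    (ac_mul : ∀ g g' v, ac (g * g') v = ac g (ac g' v)) (ac_zero : ∀ g, ac g 0 = 0)
    (ac_add : ∀ g x y, ac g (x + y) = ac g x + ac g y) (ac_smul : ∀ g (c : ZMod 3) x, ac g (c • x) = c • ac g x)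
    (ac_neg : ∀ g x, ac g (-x) = -ac g x) (ac_sub : ∀ g x y, ac g (x - y) = ac g x - ac g y)
    (bb : V → V → V) (ac_bb : ∀ g x y, ac g (bb x y) = bb (ac g x) (ac g y))
    (negl : ∀ x z, bb (-x) z = -bb x z) (negr : ∀ x z, bb x (-z) = -bb x z)
    (zl : ∀ c, bb 0 c = 0) (zr : ∀ c, bb c 0 = 0)
    {H S : Subgroup G} (hn : ∀ g ∈ H, ∀ s ∈ S, g * s * g⁻¹ ∈ S)
    (hcomm : ∀ a ∈ H, ∀ b ∈ H, a * b * a⁻¹ * b⁻¹ ∈ S) (hfour : ∀ a ∈ H, a ^ 4 ∈ S) {a0 : V} (ha0 : a0 ≠ 0)
    (hfix : ∀ s ∈ S, ac s a0 = a0) :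
    ∃ a b : V, a ≠ 0 ∧ (∀ s ∈ S, ac s a = a) ∧ (∀ s ∈ S, ac s b = b) ∧ bb a b = bb b a ∧
      (∀ g ∈ H, ac g a ∈ Submodule.span (ZMod 3) {a, b}) ∧ ∀ g ∈ H, ac g b ∈ Submodule.span (ZMod 3) {a, b} := by
  classical
  -- fixed vectors
  let A : Submodule (ZMod 3) V :=
    { carrier := {a | ∀ s ∈ S, ac s a = a}
      zero_mem' := fun s _ => ac_zero s
      add_mem' := fun {x y} hx hy s hs => by rw [ac_add, hx s hs, hy s hs]
      smul_mem' := fun c x hx s hs => by rw [ac_smul, hx s hs] }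
  have hAH : ∀ g ∈ H, ∀ a ∈ A, ac g a ∈ A := by
    intro g hg a ha s hs
    have h1 : g⁻¹ * s * g ∈ S := by
      have := hn g⁻¹ (H.inv_mem hg) s hs
      rwa [inv_inv] at this
    have h2 : s * g = g * (g⁻¹ * s * g) := by group
    rw [← ac_mul, h2, ac_mul, ha _ h1]
  have hcm : ∀ g ∈ H, ∀ k ∈ H, ∀ a ∈ A, ac g (ac k a) = ac k (ac g a) := by
    intro g hg k hk a ha
    have h1 : g * k = (g * k * g⁻¹ * k⁻¹) * (k * g) := by group
    rw [← ac_mul, h1, ac_mul (g * k * g⁻¹ * k⁻¹), ac_mul k]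
    exact hAH k hk _ (hAH g hg a ha) _ (hcomm g hg k hk)
  have h4 : ∀ g ∈ H, ∀ a ∈ A, ac g (ac g (ac g (ac g a))) = a := by
    intro g hg a ha
    rw [← ac_mul, ← ac_mul, ← ac_mul]
    have h2 : g * g * g * g = g ^ 4 := by rw [pow_succ, pow_succ, pow_succ, pow_one]
    rw [h2]
    exact ha _ (hfour g hg)
  -- the minimal subspace
  let P : Submodule (ZMod 3) V → Prop := fun W => W ≠ ⊥ ∧ W ≤ A ∧ ∀ g ∈ H, ∀ a ∈ W, ac g a ∈ W
  have hPA : P A := ⟨fun h => ha0 (by
    have : a0 ∈ A := hfix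
    rw [h] at this
    exact (Submodule.mem_bot _).1 this), le_rfl, hAH⟩
  obtain ⟨W, ⟨hW0, hWA, hWH⟩, hmin⟩ := (wellFounded_lt (α := Submodule (ZMod 3) V)).has_min {W | P W} ⟨A, hPA⟩
  have hdich : ∀ W' : Submodule (ZMod 3) V, W' ≤ W → (∀ g ∈ H, ∀ a ∈ W', ac g a ∈ W') → W' = ⊥ ∨ W' = W := by
    intro W' hle hinv
    by_cases h0 : W' = ⊥
    · exact Or.inl h0
    · right
      by_contra hne
      exact hmin W' ⟨h0, hle.trans hWA, hinv⟩ (lt_of_le_of_ne hle hne)
  obtain ⟨a, haW, ha⟩ := (Submodule.ne_bot_iff _).1 hW0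
  -- the eigenspaces
  have hE : ∀ g ∈ H, (∀ a ∈ W, ac g (ac g a) = a) → (∀ a ∈ W, ac g a = a) ∨ ∀ a ∈ W, ac g a = -a := by
    intro g hg hgg
    let W' : Submodule (ZMod 3) V :=
      { carrier := {a | a ∈ W ∧ ac g a = a}
        zero_mem' := ⟨W.zero_mem, ac_zero g⟩
        add_mem' := fun {x y} hx hy => ⟨W.add_mem hx.1 hy.1, by rw [ac_add, hx.2, hy.2]⟩
        smul_mem' := fun c x hx => ⟨W.smul_mem c hx.1, by rw [ac_smul, hx.2]⟩ }
    rcases hdich W' (fun x hx => hx.1) (fun k hk x hx => ⟨hWH k hk x hx.1, by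
      rw [hcm g hg k hk x (hWA hx.1), hx.2]⟩) with h1 | h1
    · right
      intro x hx
      have h2 : ac g x + x ∈ W' := ⟨W.add_mem (hWH g hg x hx) hx, by rw [ac_add, hgg x hx, add_comm]⟩
      rw [h1] at h2
      exact eq_neg_of_add_eq_zero_left ((Submodule.mem_bot _).1 h2)
    · left
      intro x hx
      rw [← h1] at hx
      exact hx.2
  have hEE : ∀ g ∈ H, (∀ a ∈ W, ac g (ac g a) = a) ∨ ∀ a ∈ W, ac g (ac g a) = -a := by
    intro g hg
    let W' : Submodule (ZMod 3) V :=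
      { carrier := {a | a ∈ W ∧ ac g (ac g a) = a}
        zero_mem' := ⟨W.zero_mem, by rw [ac_zero, ac_zero]⟩
        add_mem' := fun {x y} hx hy => ⟨W.add_mem hx.1 hy.1, by rw [ac_add, ac_add, hx.2, hy.2]⟩
        smul_mem' := fun c x hx => ⟨W.smul_mem c hx.1, by rw [ac_smul, ac_smul, hx.2]⟩ }
    rcases hdich W' (fun x hx => hx.1) (fun k hk x hx => ⟨hWH k hk x hx.1, by
      rw [hcm g hg k hk x (hWA hx.1), hcm g hg k hk _ (hWA (hWH g hg x hx.1)), hx.2]⟩) with h1 | h1
    · right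
      intro x hx
      have h2 : ac g (ac g x) + x ∈ W' := ⟨W.add_mem (hWH g hg _ (hWH g hg x hx)) hx, by
        rw [ac_add, ac_add, h4 g hg x (hWA hx), add_comm]⟩
      rw [h1] at h2
      exact eq_neg_of_add_eq_zero_left ((Submodule.mem_bot _).1 h2)
    · left
      intro x hx
      rw [← h1] at hx
      exact hx.2
  -- the one-dimensional case
  have one : ∀ c : V, c ≠ 0 → c ∈ A → (∀ g ∈ H, ac g c = c ∨ ac g c = -c) → ∃ a b : V, a ≠ 0 ∧ (∀ s ∈ S, ac s a = a) ∧
      (∀ s ∈ S, ac s b = b) ∧ bb a b = bb b a ∧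
      (∀ g ∈ H, ac g a ∈ Submodule.span (ZMod 3) {a, b}) ∧ ∀ g ∈ H, ac g b ∈ Submodule.span (ZMod 3) {a, b} := by
    intro c hc hcA hcH
    refine ⟨c, 0, hc, hcA, fun s _ => ac_zero s, ?_, ?_, ?_⟩
    · rw [zr, zl]
    · intro g hg
      rcases hcH g hg with h | h
      · rw [h]; exact Submodule.subset_span (Or.inl rfl)
      · rw [h]; exact Submodule.neg_mem _ (Submodule.subset_span (Or.inl rfl))
    · intro g _
      rw [ac_zero]; exact Submodule.zero_mem _
  by_cases hall : ∀ g ∈ H, ∀ a ∈ W, ac g (ac g a) = a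
  · refine one a ha (hWA haW) fun g hg => ?_
    rcases hE g hg (hall g hg) with h | h
    · exact Or.inl (h a haW)
    · exact Or.inr (h a haW)
  · push Not at hall
    obtain ⟨σ, hσ, a', ha', hne⟩ := hall
    have hσσ : ∀ a ∈ W, ac σ (ac σ a) = -a := (hEE σ hσ).resolve_left fun h => hne (h a' ha')
    -- every element acts as `± 1` or `± σ`
    have hcase : ∀ g ∈ H, (∀ x ∈ W, ac g x = x) ∨ (∀ x ∈ W, ac g x = -x) ∨ (∀ x ∈ W, ac g x = ac σ x) ∨
        ∀ x ∈ W, ac g x = -ac σ x := by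
      intro g hg
      rcases hEE g hg with h1 | h1
      · rcases hE g hg h1 with h2 | h2
        · exact Or.inl h2
        · exact Or.inr (Or.inl h2)
      · have h2 : ∀ x ∈ W, ac (g * σ) (ac (g * σ) x) = x := by
          intro x hx
          rw [ac_mul, ac_mul, hcm σ hσ g hg _ (hWA (hWH σ hσ x hx)), hσσ x hx, ac_neg, ac_neg, h1 x hx, neg_neg]
        rcases hE (g * σ) (H.mul_mem hg hσ) h2 with h3 | h3
        · right; right; right
          intro x hx
          have h5 := h3 (ac σ x) (hWH σ hσ x hx)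
          rw [ac_mul, hσσ x hx, ac_neg] at h5
          rw [← h5, neg_neg]
        · right; right; left
          intro x hx
          have h5 := h3 (ac σ x) (hWH σ hσ x hx)
          rw [ac_mul, hσσ x hx, ac_neg] at h5
          exact neg_injective h5
    have hbW := hWH σ hσ a haW
    set b := ac σ a with hb
    have hσb : ac σ b = -a := by rw [hb]; exact hσσ a haW
    by_cases hc : bb a b = bb b a
    · refine ⟨a, b, ha, hWA haW, hWA hbW, hc, ?_, ?_⟩
      · intro g hg
        rcases hcase g hg with h | h | h | h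
        · rw [h a haW]; exact Submodule.subset_span (Or.inl rfl)
        · rw [h a haW]; exact Submodule.neg_mem _ (Submodule.subset_span (Or.inl rfl))
        · rw [h a haW]; exact Submodule.subset_span (Or.inr rfl)
        · rw [h a haW]; exact Submodule.neg_mem _ (Submodule.subset_span (Or.inr rfl))
      · intro g hg
        rcases hcase g hg with h | h | h | h
        · rw [h b hbW]; exact Submodule.subset_span (Or.inr rfl)
        · rw [h b hbW]; exact Submodule.neg_mem _ (Submodule.subset_span (Or.inr rfl))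
        · rw [h b hbW, hσb]; exact Submodule.neg_mem _ (Submodule.subset_span (Or.inl rfl))
        · rw [h b hbW, hσb, neg_neg]; exact Submodule.subset_span (Or.inl rfl)
    · refine one (bb a b - bb b a) (sub_ne_zero.2 hc) ?_ ?_
      · intro s hs
        rw [ac_sub, ac_bb, ac_bb, hWA haW s hs, hWA hbW s hs]
      · intro g hg
        left
        rw [ac_sub, ac_bb, ac_bb]
        rcases hcase g hg with h | h | h | h
        · rw [h a haW, h b hbW]
        · rw [h a haW, h b hbW, negl, negr, negl, negr, neg_neg, neg_neg]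
        · rw [h a haW, h b hbW, hσb, ← hb, negr, negl]
          abel
        · rw [h a haW, h b hbW, hσb, ← hb, neg_neg, negl, negr]
          abel

end Cfsg.Agent.H948.P3
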