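import Mathlib
import Cfsg.Agent.H948.P3.Fin
import Cfsg.Agent.H948.P3.Pair

/-!
# S5921, P3: the invariant subspace, and the conclusion
-/

set_option autoImplicit false
set_option linter.unusedSectionVars false
set_option maxRecDepth 100000

namespace Cfsg.Agent.H948.P3

open CoxeterSystem Cfsg Cfsg.Lie Cfsg.Lie.ChevalleyDatum
open Cfsg.Agent.H971.RV (br br_add_left br_add_right br_sub_left br_sub_right br_smul_left br_smul_right)
open Cfsg.Agent.H540.E8C (KK)
open Cfsg.Agent.H943.SL2Rel (h u w)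
open Cfsg.Agent.H525.E8L (CentreStmt P3Stmt)

/-- proportional components -/
theorem prop_of_br' {u v : chevE8.Idx → KK} (hu : Su u) (hv : Su v) (h : br chevE8 KK u v = br chevE8 KK v u)
    {j : Fin 4} (h0 : cp j u ≠ 0) : ∃ c : KK, cp j v = c • cp j u := by
  have h3 := br_px kk2 hu hv j
  have h4 := br_nx kk2 hu hv j
  have h5 := br_hx kk2 hu hv j
  rw [h] at h3 h4 h5
  rw [br_px kk2 hv hu] at h3
  rw [br_nx kk2 hv hu] at h4
  rw [br_hx kk2 hv hu] at h5
  have k3 : al j u * v (px j) - u (px j) * al j v = 0 := by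
    have : (2 : KK) * (al j u * v (px j) - u (px j) * al j v) = 0 := by linear_combination -h3
    exact (mul_eq_zero.1 this).resolve_left kk2
  have k4 : u (nx j) * al j v - al j u * v (nx j) = 0 := by
    have : (2 : KK) * (u (nx j) * al j v - al j u * v (nx j)) = 0 := by linear_combination -h4
    exact (mul_eq_zero.1 this).resolve_left kk2
  have k5 : u (px j) * v (nx j) - u (nx j) * v (px j) = 0 := by
    have : (2 : KK) * (u (px j) * v (nx j) - u (nx j) * v (px j)) = 0 := by linear_combination -h5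
    exact (mul_eq_zero.1 this).resolve_left kk2
  clear h3 h4 h5
  rw [cp_eq] at h0
  rw [cp_eq, cp_eq]
  by_cases a1 : u (px j) = 0
  · by_cases a2 : u (nx j) = 0
    · have a3 : al j u ≠ 0 := by
        intro a3
        apply h0
        rw [a1, a2, a3]
        funext k; fin_cases k <;> rfl
      rw [a1, zero_mul, sub_zero] at k3
      rw [a2, zero_mul, zero_sub] at k4
      have b1 : v (px j) = 0 := (mul_eq_zero.1 k3).resolve_left a3
      have b2 : v (nx j) = 0 := (mul_eq_zero.1 (neg_eq_zero.1 k4)).resolve_left a3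
      refine ⟨al j v / al j u, ?_⟩
      rw [a1, a2, b1, b2]
      funext k
      fin_cases k
      · simp
      · simp
      · simp [div_mul_cancel₀ _ a3]
    · refine ⟨v (nx j) / u (nx j), ?_⟩
      rw [a1, zero_mul, zero_sub] at k5
      have b1 : v (px j) = 0 := (mul_eq_zero.1 (neg_eq_zero.1 k5)).resolve_left a2
      funext k
      fin_cases k
      · simp [a1, b1]
      · simp [div_mul_cancel₀ _ a2]
      · show al j v = v (nx j) / u (nx j) * al j u
        field_simp
        linear_combination k4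
  · refine ⟨v (px j) / u (px j), ?_⟩
    funext k
    fin_cases k
    · simp [div_mul_cancel₀ _ a1]
    · show v (nx j) = v (px j) / u (px j) * u (nx j)
      field_simp
      linear_combination k5
    · show al j v = v (px j) / u (px j) * al j u
      field_simp
      linear_combination -k3

theorem va_bb' {y : Ge} (D : Dt y) {a b : Lv} (hab : bb a b = bb b a) :
    br chevE8 KK (va D a) (va D b) = br chevE8 KK (va D b) (va D a) := by
  unfold va
  rw [← mt_br, ← mt_br, ← em_bb, ← em_bb, hab]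

theorem fix_comm' {y : Ge} (D : Dt y) {a b : Lv} (ha : ac y a = a) (hb : ac y b = b) (hab : bb a b = bb b a)
    (h0 : cp 0 (va D a) ≠ 0) {m : Ge} (hm : m * y = y * m) (hma : ac m a = a) : ac m b = b :=
  fix_together D ha hb (fun _ => prop_of_br' (va_su D ha) (va_su D hb) (va_bb' D hab)
    (fun hj => h0 (zero_of D ha hj))) hm hma

theorem ac_smul (g : Ge) (c : ZMod 3) (v : Lv) : ac g (c • v) = c • ac g v := Matrix.mulVec_smul _ _ _

theorem bb_negl (x z : Lv) : bb (-x) z = -bb x z := by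
  have := br_smul_left (k := ZMod 3) (D := chevE8) (-1) x z
  rwa [neg_one_smul, neg_one_smul] at this

theorem bb_negr (x z : Lv) : bb x (-z) = -bb x z := by
  have := br_smul_right (k := ZMod 3) (D := chevE8) (-1) x z
  rwa [neg_one_smul, neg_one_smul] at this

theorem bb_zr (c : Lv) : bb c 0 = 0 := by
  have := br_sub_right (k := ZMod 3) (D := chevE8) c 0 0
  rw [sub_zero] at this
  show br chevE8 (ZMod 3) c 0 = 0
  rw [this, sub_self]

theorem bb_zl (c : Lv) : bb 0 c = 0 := by
  have := br_sub_left (k := ZMod 3) (D := chevE8) 0 0 c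
  rw [sub_zero] at this
  show br chevE8 (ZMod 3) 0 c = 0
  rw [this, sub_self]

/-- **the invariant pair** -/
theorem exists_pair {H S : Subgroup Ge} (hn : ∀ g ∈ H, ∀ s ∈ S, g * s * g⁻¹ ∈ S)
    (hcomm : ∀ a ∈ H, ∀ b ∈ H, a * b * a⁻¹ * b⁻¹ ∈ S) (hfour : ∀ a ∈ H, a ^ 4 ∈ S) {a0 : Lv} (ha0 : a0 ≠ 0)
    (hfix : ∀ s ∈ S, ac s a0 = a0) :
    ∃ a b : Lv, a ≠ 0 ∧ (∀ s ∈ S, ac s a = a) ∧ (∀ s ∈ S, ac s b = b) ∧ bb a b = bb b a ∧
      (∀ g ∈ H, ac g a ∈ Submodule.span (ZMod 3) {a, b}) ∧ ∀ g ∈ H, ac g b ∈ Submodule.span (ZMod 3) {a, b} := by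
  refine pair_abs ac ?_ ?_ ?_ ?_ ?_ ?_ bb ?_ ?_ ?_ ?_ ?_ ?_ ?_ ?_ ha0 hfix
  · exact ac_mul
  · exact ac_zero
  · exact ac_add
  · exact ac_smul
  · exact ac_neg
  · exact ac_sub
  · exact ac_bb
  · exact bb_negl
  · exact bb_negr
  · exact bb_zl
  · exact bb_zr
  · exact hn
  · exact hcomm
  · exact hfour

theorem cen_le {y : Ge} (hy : y ^ 40 = 1) {ζ : KK} (hζ : IsPrimitiveRoot ζ 40) {z t : ↥(chevE8.group KK)}
    (hz : z⁻¹ * ee y * z = t) (htT : t ∈ Cfsg.Agent.KFacts.RgdChevCoord.TT chevE8 KK)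
    (hv : ∀ i, Cfsg.Agent.H129.TorusChar.cX Cfsg.Agent.H942.E8Tab.e8T t (Cfsg.Agent.Tits.Roots.sr i) =
      ζ ^ (Cfsg.Agent.H942.E8Alc.vecL 40 V3 i).val) :
    42508800 ≤ Nat.card ↥(cen y) := by
  unfold cen
  rw [← bndC3]
  exact Cfsg.Agent.H942.CB.cent_le (by norm_num) (by norm_num) chkC3 hy ⟨z, t, ζ, hζ, hz, htT, hv⟩

/-- **P3** -/
theorem p3 (hC : CentreStmt) : P3Stmt := by
  intro F _ _ ι H φ hS lam hlam hT hfx
  obtain ⟨a0, ha0, hfix⟩ := hfx
  have hy40 : φ (h lam) ^ 40 = 1 := (Cfsg.Agent.H525.E8L.y_pow φ hS.ker hS.card hlam).1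
  have hζ := Cfsg.Agent.H525.E8L.prim40 hS.card ι hlam
  obtain ⟨z, t, hz, htT, hv⟩ := hT
  obtain ⟨D⟩ := exists_dt hy40 hζ hz htT hv
  have hM := cen_le hy40 hζ hz htT hv
  obtain ⟨a, b, ha, haS, hbS, hab, hga, hgb⟩ := exists_pair hS.norm hS.comm hS.four ha0 hfix
  have hyS : φ (h lam) ∈ φ.range := ⟨_, rfl⟩
  have hya := haS _ hyS
  have hyb := hbS _ hyS
  -- elements fixing `a` and `b` lie in `H`
  have hH : ∀ g : Ge, ac g a = a → ac g b = b → g ∈ H := by
    intro g h1 h2
    refine hC F H φ hS (Submodule.span (ZMod 3) {a, b}) ?_ ?_ ?_ g ?_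
    · intro h0
      have h3 : a ∈ Submodule.span (ZMod 3) {a, b} := Submodule.subset_span (Or.inl rfl)
      rw [h0] at h3
      exact ha ((Submodule.mem_bot _).1 h3)
    · intro g hg x hx
      show ac g x ∈ _
      induction hx using Submodule.span_induction with
      | mem x hx =>
        rcases hx with rfl | hx
        · exact hga g hg
        · rw [Set.mem_singleton_iff] at hx
          rw [hx]; exact hgb g hg
      | zero => rw [ac_zero]; exact Submodule.zero_mem _
      | add x y _ _ hx hy => rw [ac_add]; exact Submodule.add_mem _ hx hy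
      | smul c x _ hx => rw [ac_smul]; exact Submodule.smul_mem _ _ hx
    · intro s hs x hx
      show ac s x = x
      induction hx using Submodule.span_induction with
      | mem x hx =>
        rcases hx with rfl | hx
        · exact haS s hs
        · rw [Set.mem_singleton_iff] at hx
          rw [hx]; exact hbS s hs
      | zero => exact ac_zero s
      | add x y _ _ hx hy => rw [ac_add, hx, hy]
      | smul c x _ hx => rw [ac_smul, hx]
    · intro x hx
      show ac g x = x
      induction hx using Submodule.span_induction with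
      | mem x hx =>
        rcases hx with rfl | hx
        · exact h1
        · rw [Set.mem_singleton_iff] at hx
          rw [hx]; exact h2
      | zero => exact ac_zero g
      | add x y _ _ hx hy => rw [ac_add, hx, hy]
      | smul c x _ hx => rw [ac_smul, hx]
  -- the stabiliser of one of the vectors is in `H ∩ C(y)`
  have hcard : ∀ e : Lv, ac (φ (h lam)) e = e → (∀ m ∈ stb (φ (h lam)) e, ac m a = a ∧ ac m b = b) → False := by
    intro e he hme
    have h1 := card_stb D hM he
    have hfinG : Finite Ge := finGe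
    have h2 : stb (φ (h lam)) e ≤ H ⊓ Subgroup.centralizer {φ (h lam)} := fun m hm =>
      Subgroup.mem_inf.2 ⟨hH m (hme m hm).1 (hme m hm).2, mem_cen'.2 (mem_stb.1 hm).1⟩
    have h3 := Nat.le_of_dvd (by norm_num) (hS.cyc lam hlam).2
    have h4 : Nat.card ↥(stb (φ (h lam)) e) ≤ Nat.card ↥(H ⊓ Subgroup.centralizer {φ (h lam)}) :=
      Nat.card_le_card_of_injective _ (Subgroup.inclusion_injective h2)
    omega
  by_cases h0 : cp 0 (va D a) = 0
  · by_cases h1 : cp 0 (va D b) = 0
    · exact hcard a hya fun m hm => ⟨(mem_stb.1 hm).2, fix_centre D hyb h1 (mem_stb.1 hm).1⟩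
    · exact hcard b hyb fun m hm => ⟨fix_centre D hya h0 (mem_stb.1 hm).1, (mem_stb.1 hm).2⟩
  · exact hcard a hya fun m hm => ⟨(mem_stb.1 hm).2, fix_comm' D hya hyb hab h0 (mem_stb.1 hm).1 (mem_stb.1 hm).2⟩

end Cfsg.Agent.H948.P3
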