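import Mathlib
import Cfsg.Agent.ChevalleyStructure.XColumns
import Cfsg.Prelude.Def_ChevE8

/-!
# S5921, P3: the action of the centraliser of `t` on the 16-dimensional space of the vectors of weight 1

The eight roots `± α_i`, `i = 1, 2, 4, 6` (numbered from 0), have the indices `pI j`, `nI j`, `j < 4`.
-/

set_option autoImplicit false
set_option linter.unusedSectionVars false
set_option maxRecDepth 100000

namespace Cfsg.Agent.H948.P3

open Matrix Cfsg Cfsg.Lie Cfsg.Lie.ChevalleyDatum
open Cfsg.Agent.ChevalleyStructure Cfsg.Agent.ChevalleyStructure.XColumns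

universe u

section Gen

variable {K : Type u} [Field K] {D : ChevalleyDatum}

theorem eq_sum (u : D.Idx → K) : u = (∑ i : Fin D.rank, u (Sum.inl i) • hv D K i.val) +
    ∑ s : Fin D.nroots, u (Sum.inr s) • ev D K s.val := by
  classical
  funext a
  rw [Pi.add_apply, Finset.sum_apply, Finset.sum_apply]
  simp only [Pi.smul_apply, smul_eq_mul]
  rcases a with i | s
  · rw [Finset.sum_eq_single i, Finset.sum_eq_zero]
    · simp
    · intro s _; simp
    · intro b _ hb
      rw [hv_inl, if_neg (fun h => hb (Fin.ext h).symm), mul_zero]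
    · intro h; exact absurd (Finset.mem_univ i) h
  · rw [Finset.sum_eq_zero (s := (Finset.univ : Finset (Fin D.rank))), Finset.sum_eq_single s]
    · simp
    · intro b _ hb
      rw [ev_inr, if_neg (fun h => hb (Fin.ext h).symm), mul_zero]
    · intro h; exact absurd (Finset.mem_univ s) h
    · intro i _; simp

/-- the action of a root element on a vector whose other weights are orthogonal to the root -/
theorem x_act {r : ℕ} (hr : r < D.nroots) (hn : D.neg r < D.nroots) (hne : D.neg r ≠ r)
    (hrow : ((row D r).map Prod.fst).Nodup) (u : D.Idx → K)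
    (hu : ∀ s : Fin D.nroots, u (Sum.inr s) ≠ 0 → s.val ≠ r → s.val ≠ D.neg r → D.chainEntry r s.val = []) (t : K) :
    D.x K r t *ᵥ u = u + (-(t * ∑ i : Fin D.rank, (D.cartan i.val r : K) * u (Sum.inl i)) -
      t ^ 2 * u (Sum.inr ⟨D.neg r, hn⟩)) • ev D K r + (t * u (Sum.inr ⟨D.neg r, hn⟩)) • corv D K r := by
  classical
  have h1 : ∀ s : Fin D.nroots, u (Sum.inr s) • (D.x K r t *ᵥ ev D K s.val) = u (Sum.inr s) • ev D K s.val +
      (if s = ⟨D.neg r, hn⟩ then u (Sum.inr s) • (t • corv D K r - t ^ 2 • ev D K r) else 0) := by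
    intro s
    by_cases h0 : u (Sum.inr s) = 0
    · rw [h0, zero_smul, zero_smul, zero_smul, ite_self, add_zero]
    by_cases hs : s.val = r
    · have h2 : ¬ s = ⟨D.neg r, hn⟩ := fun h => hne ((congrArg Fin.val h).symm.trans hs)
      rw [hs, x_mulVec_ev_self hr, if_neg h2, add_zero]
    by_cases hs' : s.val = D.neg r
    · have h2 : s = ⟨D.neg r, hn⟩ := Fin.ext hs'
      rw [if_pos h2, hs', x_mulVec_ev_neg hr hn hne, ← smul_add]
      congr 1
      abel
    · rw [if_neg fun h => hs' (congrArg Fin.val h), add_zero, x_mulVec_ev hr s.2 hs hs' hrow,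
        hu s h0 hs hs']
      simp
  have h2 : ∀ i : Fin D.rank, u (Sum.inl i) • (D.x K r t *ᵥ hv D K i.val) = u (Sum.inl i) • hv D K i.val -
      (t * ((D.cartan i.val r : K) * u (Sum.inl i))) • ev D K r := by
    intro i
    rw [x_mulVec_hv hr i.2, smul_sub, smul_smul]
    congr 2
    ring
  have h3 : D.x K r t *ᵥ u = (∑ i : Fin D.rank, u (Sum.inl i) • (D.x K r t *ᵥ hv D K i.val)) +
      ∑ s : Fin D.nroots, u (Sum.inr s) • (D.x K r t *ᵥ ev D K s.val) := by
    have h4 := congrArg (fun v => (D.x K r t).mulVecLin v) (eq_sum u)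
    simp only [map_add, map_sum, map_smul, Matrix.mulVecLin_apply] at h4
    exact h4
  rw [h3, Finset.sum_congr rfl fun i _ => h2 i, Finset.sum_congr rfl fun s _ => h1 s, Finset.sum_sub_distrib,
    Finset.sum_add_distrib, Finset.sum_ite_eq' Finset.univ, if_pos (Finset.mem_univ _), ← Finset.sum_smul,
    ← Finset.mul_sum]
  simp only [smul_sub, smul_smul, sub_smul, neg_smul]
  rw [mul_comm (u _) t, mul_comm (u _) (t ^ 2)]
  have e : ∀ (a b c d f : D.Idx → K), a - b + (c + (d - f)) = (a + c) + (-b - f) + d := by intros; abel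
  rw [e, ← eq_sum u]

end Gen

end Cfsg.Agent.H948.P3
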